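import Cfsg.Agent.H108.TK.Kill
import Cfsg.Agent.H913.N6Cov
import Cfsg.Agent.StandardComponent.AltAut

/-!
# `3.A₇` and `6.A₇`: no outer automorphisms (helper108)

`cover_A7` : if `P` is a core with `P / scalars ≅ A₇` containing scalars of order three and `H` normalises `P`, then
`H ≤ P · scalars` (the generic form of helper890's argument for `n = 6`).
`kill_A7_SU` : the tensor kill for `P / scalars ≅ A₇`.
-/

set_option autoImplicit false
set_option linter.unusedSectionVars false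

namespace Cfsg.Agent.H108.TK

open Cfsg Cfsg.Geo Matrix Cfsg.Agent.H913.N6
open Equiv Equiv.Perm
open Cfsg.Agent.H915.LD (Core Soc toSoc tr core_of_residual)

/-- `(0 1 2)` -/
def t3 : alternatingGroup (Fin 7) := ⟨c[0, 1, 2], mem_alternatingGroup.2 (by decide)⟩
/-- `(3 4 5)` -/
def t3' : alternatingGroup (Fin 7) := ⟨c[3, 4, 5], mem_alternatingGroup.2 (by decide)⟩

/-- `(i, j) ↦ t3 ^ i * t3' ^ j` -/
def f9 : Multiplicative (ZMod 3 × ZMod 3) →* alternatingGroup (Fin 7) :=
  MonoidHom.mk' (fun x => t3 ^ (x.toAdd.1).val * t3' ^ (x.toAdd.2).val) (by decide +kernel)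

theorem f9_injective : Function.Injective f9 := by
  rw [injective_iff_map_eq_one]
  decide +kernel

theorem index_f9 : f9.range.index = 280 := by
  have h1 : Nat.card f9.range = 9 := by
    rw [← Nat.card_congr (MonoidHom.ofInjective f9_injective).toEquiv]
    show Nat.card (ZMod 3 × ZMod 3) = 9
    rw [Nat.card_prod, Nat.card_zmod]
  have h2 := f9.range.card_mul_index
  rw [h1, nat_card_alternatingGroup, Nat.card_eq_fintype_card, Fintype.card_fin] at h2
  have h3 : Nat.factorial 7 / 2 = 9 * 280 := by decide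
  rw [h3] at h2
  exact Nat.eq_of_mul_eq_mul_left (by norm_num) h2

theorem L_congr {ι : Type} [Fintype ι] [DecidableEq ι] {F : Type*} [Field F] {P : Subgroup (GL ι F)} {T : Type*}
    [Group T] {C : Cov P T} {x : GL ι F} {σ τ : T} (h : C.L x σ) (e : σ = τ) : C.L x τ := e ▸ h

variable {ι : Type} [Fintype ι] [DecidableEq ι] {F : Type*} [Field F] {P H : Subgroup (GL ι F)}
  {C : Cov P (alternatingGroup (Fin 7))}

/-- the lifts of the two `3`-cycles do not commute -/
theorem not_comm [Finite F] [Nonempty ι] (hC : Core P) (hz : ∃ c : Fˣ, c ≠ 1 ∧ c ^ 3 = 1 ∧ sc c ∈ P) {a b : GL ι F}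
    (La : C.L a t3) (Lb : C.L b t3') : a * b ≠ b * a := by
  intro hab
  obtain ⟨c, hc1, hc3, hc⟩ := hz
  have hcomm : Commute a b := hab
  let S : Subgroup P := f9.range.comap C.π
  have hS : ∀ x ∈ S, ∀ y ∈ S, x * y = y * x := by
    have form : ∀ x ∈ S, ∃ (d : Fˣ) (i j : ℕ), (x : GL ι F) = sc d * (a ^ i * b ^ j) := by
      intro x hx
      obtain ⟨m, hm⟩ := hx
      have h1 : C.L (x : GL ι F) (t3 ^ (m.toAdd.1).val * t3' ^ (m.toAdd.2).val) := ⟨x.2, hm.symm⟩
      have h2 := (La.pow (m.toAdd.1).val).mul (Lb.pow (m.toAdd.2).val)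
      obtain ⟨d, -, hd⟩ := h1.exists_sc h2
      exact ⟨d, _, _, hd⟩
    intro x hx y hy
    obtain ⟨d, i, j, h1⟩ := form x hx
    obtain ⟨d', i', j', h2⟩ := form y hy
    apply Subtype.ext
    rw [Subgroup.coe_mul, Subgroup.coe_mul, h1, h2]
    have e1 : Commute (a ^ i * b ^ j) (a ^ i' * b ^ j') := by
      apply Commute.mul_left
      · exact Commute.mul_right (Commute.pow_pow (Commute.refl a) _ _) (hcomm.pow_pow _ _)
      · exact Commute.mul_right (hcomm.symm.pow_pow _ _) (Commute.pow_pow (Commute.refl b) _ _)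
    have e2 : ∀ (e : Fˣ) (z : GL ι F), Commute (sc e) z := fun e z => sc_comm e z
    exact ((e2 d _).mul_left ((e2 d' _).symm.mul_right e1)).eq
  have hzS : (⟨sc c, hc⟩ : P) ∈ S := by
    show C.π _ ∈ f9.range
    rw [(C.ker ⟨sc c, hc⟩).2 (sc_mem_scalars c)]
    exact one_mem _
  have h1 := pow_index_mem hC.commutator_top S hS hzS (fun x => Subtype.ext (sc_comm c (x : GL ι F)))
  have h2 : S.index = 280 := by
    rw [← index_f9]
    exact Subgroup.index_comap_of_surjective _ C.surj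
  rw [h2] at h1
  have h3 : sc (c ^ 280) = (1 : GL ι F) := by
    rw [sc_pow]
    exact congrArg Subtype.val h1
  rw [← sc_one] at h3
  have h4 := sc_inj h3
  apply hc1
  have h6 : c ^ 280 = (c ^ 3) ^ 93 * c := by rw [← pow_mul, ← pow_succ]
  rw [h6, hc3, one_pow, one_mul] at h4
  exact h4

/-- a scalar of order three -/
theorem exists_three [Finite F] (h : 3 ∣ Nat.card ((scalars ι F).subgroupOf P)) :
    ∃ c : Fˣ, c ≠ 1 ∧ c ^ 3 = 1 ∧ (sc c : GL ι F) ∈ P := by
  obtain ⟨z, hz⟩ := exists_prime_orderOf_dvd_card' 3 h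
  obtain ⟨c, hc⟩ := mem_scalars.1 (Subgroup.mem_subgroupOf.1 z.2)
  have hz3 : z ^ 3 = 1 := by rw [← hz]; exact pow_orderOf_eq_one z
  have hz1 : z ≠ 1 := by
    rintro rfl
    rw [orderOf_one] at hz
    norm_num at hz
  have e1 : (sc c : GL ι F) ^ 3 = 1 := by
    rw [← hc]
    exact congrArg (fun x : (scalars ι F).subgroupOf P => ((x : P) : GL ι F)) hz3
  have hne : Nonempty ι := by
    by_contra hcon
    rw [not_nonempty_iff] at hcon
    exact hz1 (Subtype.ext (Subtype.ext (Units.ext (Matrix.ext fun i => (hcon.false i).elim))))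
  refine ⟨c, ?_, ?_, ?_⟩
  · rintro rfl
    apply hz1
    apply Subtype.ext
    apply Subtype.ext
    rw [hc, sc_one]
    rfl
  · rw [← sc_pow, ← sc_one] at e1
    exact sc_inj e1
  · rw [← hc]
    exact (z : P).2

theorem cube_comm {G : Type*} [Group G] {a b s : G} (hs : ∀ y, s * y = y * s) (h : a * b = s * (b * a)) :
    a ^ 3 * b = s ^ 3 * (b * a ^ 3) := by
  have h1 : b⁻¹ * a * b = s * a := by
    rw [mul_assoc, h, ← mul_assoc, ← hs b⁻¹]
    group
  have h2 : b⁻¹ * a ^ 3 * b = s ^ 3 * a ^ 3 := by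
    rw [← (show Commute s a from hs a).mul_pow, ← h1]
    have := conj_pow (i := 3) (a := b⁻¹) (b := a)
    rw [inv_inv] at this
    exact this.symm
  calc a ^ 3 * b = b * (b⁻¹ * a ^ 3 * b) := by group
    _ = b * (s ^ 3 * a ^ 3) := by rw [h2]
    _ = s ^ 3 * (b * a ^ 3) := by
      rw [← mul_assoc, ← mul_assoc, ((show Commute s b from hs b).pow_left 3).eq]

/-- **no outer automorphisms** -/
theorem cover_A7 [Finite F] [Nonempty ι] (hH : IsResidualCore H P) (C : Cov P (alternatingGroup (Fin 7)))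
    (hz : ∃ c : Fˣ, c ≠ 1 ∧ c ^ 3 = 1 ∧ sc c ∈ P) {x : GL ι F} (hx : x ∈ H) :
    ∃ y ∈ P, ∃ s ∈ scalars ι F, x = y * s := by
  have hC : Core P := core_of_residual hH
  have hxi : ∀ y ∈ P, x⁻¹ * y * x ∈ P := by
    intro y hy
    have := hH.normal x⁻¹ (inv_mem hx) y hy
    rwa [inv_inv] at this
  obtain ⟨φ, hφ⟩ := Cov.exists_aut C (hH.normal x hx) hxi
  obtain ⟨σ, hσ⟩ := Cfsg.Agent.StandardComponent.AltAut.exists_conj (m := 5) le_rfl φ
  rcases Int.units_eq_one_or (sign σ) with hs | hs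
  · obtain ⟨y, c, hy, hc⟩ := Cov.mem_of_inner (C := C) (h := x) (φ := φ)
      (fun g hg hcs => hH.centralizer_scalar _ (mul_mem (inv_mem (hH.le hg)) hx) hcs) hφ (γ := ⟨σ, hs⟩)
      (fun τ => Subtype.ext (hσ τ))
    exact ⟨y, hy.mem, _, sc_mem_scalars c, hc⟩
  · exfalso
    obtain ⟨a, La⟩ := C.exists_lift t3
    obtain ⟨b, Lb⟩ := C.exists_lift t3'
    have hnc := not_comm hC hz La Lb
    have h33 : t3 * t3' = t3' * t3 := by decide
    obtain ⟨w, hwP, hab⟩ := (La.mul Lb).exists_sc (L_congr (Lb.mul La) h33.symm)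
    have hw1 : w ≠ 1 := by
      rintro rfl
      apply hnc
      rw [hab, sc_one, one_mul]
    have hw3 : w ^ 3 = 1 := by
      have h1 : C.L (a ^ 3) 1 := L_congr (La.pow 3) (by decide)
      obtain ⟨-, d, hd⟩ := Cov.L.one_iff.1 h1
      have h2 : a ^ 3 * b = sc (w ^ 3) * (b * a ^ 3) := by
        rw [sc_pow]
        exact cube_comm (fun y => sc_comm w y) hab
      rw [hd, sc_comm d b] at h2
      have h3 : sc (w ^ 3) = (1 : GL ι F) := by
        have := mul_right_cancel (a := (1 : GL ι F)) (b := b * sc d) (c := sc (w ^ 3)) (by rw [one_mul]; exact h2)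
        exact this.symm
      rw [← sc_one] at h3
      exact sc_inj h3
    have hmem : swap 0 1 * σ⁻¹ ∈ alternatingGroup (Fin 7) := by
      rw [mem_alternatingGroup, map_mul, map_inv, hs, sign_swap (by decide)]
      decide
    obtain ⟨y, hy⟩ := C.exists_lift ⟨swap 0 1 * σ⁻¹, hmem⟩
    have key : ∀ u τ, C.L u τ → ∀ τ' : alternatingGroup (Fin 7), (τ' : Perm (Fin 7)) =
        swap 0 1 * (τ : Perm (Fin 7)) * (swap 0 1)⁻¹ →
        C.L ((y * x) * u * (y * x)⁻¹) τ' := by
      intro u τ hu τ' hτ'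
      have h1 := (hφ u τ hu).conj hy
      have e : y * (x * u * x⁻¹) * y⁻¹ = (y * x) * u * (y * x)⁻¹ := by group
      rw [e] at h1
      refine L_congr h1 (Subtype.ext ?_)
      rw [hτ']
      show swap 0 1 * σ⁻¹ * (φ τ : Perm (Fin 7)) * (swap 0 1 * σ⁻¹)⁻¹ = _
      rw [hσ]
      group
    have h1 := key a t3 La t3⁻¹ (by decide)
    have h2 := key b t3' Lb t3' (by decide)
    obtain ⟨c₁, -, hc₁⟩ := h1.exists_sc La.inv
    obtain ⟨c₂, -, hc₂⟩ := h2.exists_sc Lb
    have h4 : (y * x) * (a * b) * (y * x)⁻¹ = sc w * ((y * x) * (b * a) * (y * x)⁻¹) := by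
      rw [hab, ← mul_assoc (y * x) (sc w), ← sc_comm]; group
    have h5 : (y * x) * (a * b) * (y * x)⁻¹ = (sc c₁ * a⁻¹) * (sc c₂ * b) := by rw [← hc₁, ← hc₂]; group
    have h6 : (y * x) * (b * a) * (y * x)⁻¹ = (sc c₂ * b) * (sc c₁ * a⁻¹) := by rw [← hc₁, ← hc₂]; group
    rw [h5, h6] at h4
    have h7 : a⁻¹ * b = sc w * (b * a⁻¹) := by
      have e1 : (sc c₁ * a⁻¹) * (sc c₂ * b) = (sc c₁ * sc c₂) * (a⁻¹ * b) := by
        rw [mul_assoc, ← mul_assoc a⁻¹, ← sc_comm c₂ a⁻¹]; group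
      have e2 : sc w * ((sc c₂ * b) * (sc c₁ * a⁻¹)) = (sc c₁ * sc c₂) * (sc w * (b * a⁻¹)) := by
        rw [mul_assoc (sc c₂) b, ← mul_assoc b, ← sc_comm c₁ b, sc_comm c₁ (sc c₂)]
        rw [← mul_assoc (sc w), ← mul_assoc (sc w * sc c₂), sc_comm w (sc c₂)]
        rw [mul_assoc (sc c₂) (sc w), ← mul_assoc (sc w) (sc c₁), sc_comm w (sc c₁)]
        group
      rw [e1, e2] at h4
      exact mul_left_cancel h4
    have h8 : b * a = sc w * (a * b) := by
      calc b * a = a * (a⁻¹ * b) * a := by group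
        _ = a * (sc w * (b * a⁻¹)) * a := by rw [h7]
        _ = sc w * (a * b) := by rw [← mul_assoc a, ← sc_comm w a]; group
    rw [hab, ← mul_assoc, ← sc_mul] at h8
    have h9 : sc (w * w) = (1 : GL ι F) := by
      have := mul_right_cancel (a := (1 : GL ι F)) (b := b * a) (c := sc (w * w)) (by rw [one_mul]; exact h8)
      exact this.symm
    rw [← sc_one] at h9
    have h10 := sc_inj h9
    apply hw1
    have h11 : w ^ 3 = w * w * w := by rw [pow_succ, sq]
    rw [h10, one_mul] at h11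
    rw [← h11, hw3]

end Cfsg.Agent.H108.TK
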