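import Mathlib

/-!
Kronecker products `F^m ⊗ F^k ≅ F^n` along an index equivalence.
-/

set_option autoImplicit false
set_option linter.unusedSectionVars false

namespace Cfsg.Agent.H108.TK

open Matrix
open scoped Kronecker

variable {F : Type*} [Field F] {m k n : Type*} [Fintype m] [Fintype k] [Fintype n] [DecidableEq m] [DecidableEq k]
  [DecidableEq n] (e : m × k ≃ n)

/-- `a ⊗ b` as a matrix on `n` -/
def kr (a : Matrix m m F) (b : Matrix k k F) : Matrix n n F := Matrix.reindex e e (a ⊗ₖ b)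

/-- `u ⊗ v` as a vector on `n` -/
def ten (u : m → F) (v : k → F) : n → F := fun i => u (e.symm i).1 * v (e.symm i).2

theorem ten_ix (u : m → F) (v : k → F) (i : m) (j : k) : ten e u v (e (i, j)) = u i * v j := by
  unfold ten
  rw [Equiv.symm_apply_apply]

theorem ext_ix {z w : n → F} (h : ∀ i j, z (e (i, j)) = w (e (i, j))) : z = w := by
  funext l
  obtain ⟨⟨i, j⟩, rfl⟩ := e.surjective l
  exact h i j

theorem kr_ix (a : Matrix m m F) (b : Matrix k k F) (i i' : m) (j j' : k) :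
    kr e a b (e (i, j)) (e (i', j')) = a i i' * b j j' := by
  unfold kr
  rw [Matrix.reindex_apply, Matrix.submatrix_apply, Equiv.symm_apply_apply, Equiv.symm_apply_apply]
  rfl

theorem sum_ix {M : Type*} [AddCommMonoid M] (f : n → M) : ∑ l, f l = ∑ i, ∑ j, f (e (i, j)) := by
  rw [← Fintype.sum_prod_type']
  exact (Equiv.sum_comp e f).symm

theorem kr_mulVec_ten (a : Matrix m m F) (b : Matrix k k F) (u : m → F) (v : k → F) :
    kr e a b *ᵥ ten e u v = ten e (a *ᵥ u) (b *ᵥ v) := by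
  apply ext_ix e
  intro i j
  rw [ten_ix, Matrix.mulVec, Matrix.mulVec, dotProduct, dotProduct, Matrix.mulVec, dotProduct, sum_ix e,
    Finset.sum_mul_sum]
  refine Finset.sum_congr rfl fun k _ => Finset.sum_congr rfl fun l _ => ?_
  rw [ten_ix, kr_ix]
  ring

theorem kr_mul (a a' : Matrix m m F) (b b' : Matrix k k F) : kr e (a * a') (b * b') = kr e a b * kr e a' b' := by
  unfold kr
  rw [Matrix.mul_kronecker_mul, Matrix.reindex_apply, Matrix.reindex_apply, Matrix.reindex_apply,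
    Matrix.submatrix_mul_equiv]

theorem kr_one : kr e (1 : Matrix m m F) (1 : Matrix k k F) = 1 := by
  unfold kr
  rw [Matrix.one_kronecker_one, Matrix.reindex_apply]
  exact Matrix.submatrix_one_equiv _

theorem mat_ext_ix {A B : Matrix n n F} (h : ∀ i j i' j', A (e (i, j)) (e (i', j')) = B (e (i, j)) (e (i', j'))) :
    A = B := by
  ext r s
  obtain ⟨⟨i, j⟩, rfl⟩ := e.surjective r
  obtain ⟨⟨k, l⟩, rfl⟩ := e.surjective s
  exact h i j k l

theorem kr_smul_left (c : F) (a : Matrix m m F) (b : Matrix k k F) : kr e (c • a) b = c • kr e a b := by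
  apply mat_ext_ix e
  intro i j k l
  rw [Matrix.smul_apply, kr_ix, kr_ix, Matrix.smul_apply, smul_eq_mul, smul_eq_mul]
  ring

theorem kr_smul_right (c : F) (a : Matrix m m F) (b : Matrix k k F) : kr e a (c • b) = c • kr e a b := by
  apply mat_ext_ix e
  intro i j k l
  rw [Matrix.smul_apply, kr_ix, kr_ix, Matrix.smul_apply, smul_eq_mul, smul_eq_mul]
  ring

theorem det_kr (a : Matrix m m F) (b : Matrix k k F) :
    (kr e a b).det = a.det ^ Fintype.card k * b.det ^ Fintype.card m := by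
  unfold kr
  rw [Matrix.det_reindex_self, Matrix.det_kronecker]

theorem kr_trans (a : Matrix m m F) (b : Matrix k k F) : (kr e a b)ᵀ = kr e aᵀ bᵀ := by
  apply mat_ext_ix e
  intro i j k l
  rw [Matrix.transpose_apply, kr_ix, kr_ix, Matrix.transpose_apply, Matrix.transpose_apply]

theorem kr_map (a : Matrix m m F) (b : Matrix k k F) (σ : F →+* F) :
    (kr e a b).map σ = kr e (a.map σ) (b.map σ) := by
  apply mat_ext_ix e
  intro i j k l
  rw [Matrix.map_apply, kr_ix, kr_ix, Matrix.map_apply, Matrix.map_apply, map_mul]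

/-- The factors of a tensor product of matrices are unique up to scalars. -/
theorem kr_eq {a a' : Matrix m m F} {b b' : Matrix k k F} (ha : a ≠ 0) (hb : b ≠ 0)
    (h : kr e a b = kr e a' b') : ∃ c : F, c ≠ 0 ∧ a' = c • a ∧ b' = c⁻¹ • b := by
  obtain ⟨i, k, hik⟩ : ∃ i k, a i k ≠ 0 := by
    by_contra h0
    push Not at h0
    exact ha (by ext i k; exact h0 i k)
  obtain ⟨j, l, hjl⟩ : ∃ j l, b j l ≠ 0 := by
    by_contra h0
    push Not at h0
    exact hb (by ext i k; exact h0 i k)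
  have e : ∀ i j k l, a i k * b j l = a' i k * b' j l := by
    intro i j k l
    rw [← kr_ix e, ← kr_ix e, h]
  have h1 : a' i k * b' j l ≠ 0 := by
    rw [← e]
    exact mul_ne_zero hik hjl
  have ha' : a' i k ≠ 0 := left_ne_zero_of_mul h1
  have hb' : b' j l ≠ 0 := right_ne_zero_of_mul h1
  refine ⟨b j l / b' j l, div_ne_zero hjl hb', ?_, ?_⟩
  · ext r s
    rw [Matrix.smul_apply, smul_eq_mul, div_mul_eq_mul_div, eq_div_iff hb']
    have := e r j s l
    linear_combination -this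
  · ext r s
    rw [Matrix.smul_apply, smul_eq_mul, inv_div, div_mul_eq_mul_div, eq_div_iff hjl]
    have h2 := e i r k s
    have h3 := e i j k l
    apply mul_left_cancel₀ hik
    apply mul_left_cancel₀ ha'
    linear_combination a' i k * b' r s * h3 - a' i k * b' j l * h2

/-- `a ⊗ b` in `GL` -/
def krGL (a : GL m F) (b : GL k F) : GL n F :=
  ⟨kr e (a : Matrix m m F) (b : Matrix k k F), kr e ((a⁻¹ : GL m F) : Matrix m m F) ((b⁻¹ : GL k F) : Matrix k k F), by
    rw [← kr_mul, ← Units.val_mul, ← Units.val_mul, mul_inv_cancel, mul_inv_cancel]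
    exact kr_one e, by
    rw [← kr_mul, ← Units.val_mul, ← Units.val_mul, inv_mul_cancel, inv_mul_cancel]
    exact kr_one e⟩

theorem coe_krGL (a : GL m F) (b : GL k F) :
    (krGL e a b : Matrix n n F) = kr e (a : Matrix m m F) (b : Matrix k k F) := rfl

theorem krGL_mul (a a' : GL m F) (b b' : GL k F) : krGL e (a * a') (b * b') = krGL e a b * krGL e a' b' :=
  Units.ext (kr_mul e _ _ _ _)

theorem krGL_one : krGL e (1 : GL m F) (1 : GL k F) = 1 := Units.ext (kr_one e)

theorem krGL_inv (a : GL m F) (b : GL k F) : (krGL e a b)⁻¹ = krGL e a⁻¹ b⁻¹ := by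
  rw [inv_eq_iff_mul_eq_one, ← krGL_mul, mul_inv_cancel, mul_inv_cancel, krGL_one]

/-- decomposable tensors -/
def Dec (w : n → F) : Prop := ∃ (u : m → F) (v : k → F), w = ten e u v

/-- The stabiliser of the set `g D`. -/
def stabD (D : (n → F) → Prop) (g : GL n F) : Subgroup (GL n F) where
  carrier := {x | ∀ w, D w ↔ D (((g⁻¹ * x * g : GL n F) : Matrix n n F) *ᵥ w)}
  one_mem' := by
    intro w
    have : g⁻¹ * 1 * g = 1 := by group
    rw [this, Units.val_one, Matrix.one_mulVec]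
  mul_mem' := by
    intro a b ha hb w
    have : g⁻¹ * (a * b) * g = (g⁻¹ * a * g) * (g⁻¹ * b * g) := by group
    rw [this, Units.val_mul, ← Matrix.mulVec_mulVec, ← ha, ← hb]
  inv_mem' := by
    intro a ha w
    rw [ha (((g⁻¹ * a⁻¹ * g : GL n F) : Matrix n n F) *ᵥ w)]
    have : ((g⁻¹ * a * g : GL n F) : Matrix n n F) *ᵥ
        (((g⁻¹ * a⁻¹ * g : GL n F) : Matrix n n F) *ᵥ w) = w := by
      rw [Matrix.mulVec_mulVec, ← Units.val_mul]
      have : (g⁻¹ * a * g) * (g⁻¹ * a⁻¹ * g) = 1 := by group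
      rw [this, Units.val_one, Matrix.one_mulVec]
    rw [this]

theorem mem_stabD {D : (n → F) → Prop} {g x : GL n F} :
    x ∈ stabD D g ↔ ∀ w, D w ↔ D (((g⁻¹ * x * g : GL n F) : Matrix n n F) *ᵥ w) := Iff.rfl

/-- criterion for membership of a whole subgroup -/
theorem le_stabD {D : (n → F) → Prop} {g : GL n F} {H : Subgroup (GL n F)}
    (h : ∀ x ∈ H, ∀ w, D w → D (((g⁻¹ * x * g : GL n F) : Matrix n n F) *ᵥ w)) : H ≤ stabD D g := by
  intro x hx w
  refine ⟨h x hx w, fun h1 => ?_⟩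
  have h2 := h x⁻¹ (H.inv_mem hx) _ h1
  rw [Matrix.mulVec_mulVec, ← Units.val_mul] at h2
  have : (g⁻¹ * x⁻¹ * g) * (g⁻¹ * x * g) = 1 := by group
  rwa [this, Units.val_one, Matrix.one_mulVec] at h2

/-- `g (a ⊗ b) g⁻¹` stabilises the decomposable tensors -/
theorem conj_krGL_mem (g : GL n F) (a : GL m F) (b : GL k F) : g * krGL e a b * g⁻¹ ∈ stabD (Dec e) g := by
  have key : ∀ (a : GL m F) (b : GL k F) (w : n → F), Dec e w → Dec e ((krGL e a b : Matrix n n F) *ᵥ w) := by
    rintro a b _ ⟨u, v, rfl⟩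
    exact ⟨_, _, by rw [coe_krGL, kr_mulVec_ten]⟩
  intro w
  have h1 : g⁻¹ * (g * krGL e a b * g⁻¹) * g = krGL e a b := by group
  rw [h1]
  refine ⟨key a b w, fun h2 => ?_⟩
  have h3 := key a⁻¹ b⁻¹ _ h2
  rw [Matrix.mulVec_mulVec, ← Units.val_mul, ← krGL_mul, inv_mul_cancel, inv_mul_cancel, krGL_one, Units.val_one,
    Matrix.one_mulVec] at h3
  exact h3

end Cfsg.Agent.H108.TK
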