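import Cfsg.Agent.H108.TK.A7
import Cfsg.Agent.S2697

/-!
# Tensor kill with arbitrary Hermitian forms (helper108)

`TU e hF J₁ J₂ g` : the matrices `g (a ⊗ b) g⁻¹` with `a`, `b` preserving the Hermitian matrices `J₁`, `J₂`.
`kill_TU` : tensor kill. `kill_A7_SU` : the case `P / scalars ≅ A₇`, `3 ∣ |scalars|`, in terms of generators.
-/

set_option autoImplicit false
set_option linter.unusedSectionVars false

namespace Cfsg.Agent.H108.TK

open Cfsg Cfsg.Geo Matrix Cfsg.Agent.H913.N6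
open Cfsg.Agent.LieClassical.HermBasic
open Cfsg.Agent.H108.Nine (sg sg_apply map_map_sg sg_sg)
open Cfsg.Agent.H915.LD (Core Soc toSoc tr core_of_residual)

variable {F : Type*} [Field F] [Fintype F] {q : ℕ} {m k n : ℕ}

/-- A non-degenerate Hermitian matrix: its isometries are conjugate to unitary matrices. -/
theorem exists_conj_GU (hF : Fintype.card F = q ^ 2) {J : Matrix (Fin m) (Fin m) F}
    (hJ : (J.map (sg hF))ᵀ = J) (hJ0 : J.det ≠ 0) : ∃ T : GL (Fin m) F, ∀ x : GL (Fin m) F,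
      (x : Matrix (Fin m) (Fin m) F)ᵀ * J * (x : Matrix (Fin m) (Fin m) F).map (sg hF) = J →
      T⁻¹ * x * T ∈ GU m F q := by
  obtain ⟨A, hA⟩ : ∃ A : GL (Fin m) F, (A : Matrix (Fin m) (Fin m) F) = J :=
    (Matrix.isUnit_iff_isUnit_det _).2 (isUnit_iff_ne_zero.2 hJ0)
  have hne : conj hF ≠ RingEquiv.refl F := by
    intro h
    obtain ⟨x, hx⟩ := exists_not_fixed hF
    exact hx (DFunLike.congr_fun h x)
  obtain ⟨H, hH⟩ := Cfsg.Agent.S2697.exists_herm hne (pow_q_pow_q hF) A (by rw [hA]; exact hJ)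
  have hJH : J = (H : Matrix (Fin m) (Fin m) F) * ((H : Matrix (Fin m) (Fin m) F).map (sg hF))ᵀ := by
    rw [← hA, hH, Units.val_mul]
    rfl
  obtain ⟨K, hK⟩ : ∃ K : GL (Fin m) F, (K : Matrix (Fin m) (Fin m) F) = (H : Matrix (Fin m) (Fin m) F)ᵀ :=
    ⟨(Cfsg.Agent.H966.PSLAut.ctr H)⁻¹, rfl⟩
  refine ⟨K⁻¹, fun x hx => ?_⟩
  rw [inv_inv]
  apply mem_GU_of_un hF
  have hKJ : J = (K : Matrix (Fin m) (Fin m) F)ᵀ * (K : Matrix (Fin m) (Fin m) F).map (sg hF) := by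
    rw [hJH, hK]
    rfl
  have h1 : (K : Matrix (Fin m) (Fin m) F) * ((K⁻¹ : GL (Fin m) F) : Matrix (Fin m) (Fin m) F) = 1 := by
    rw [← Units.val_mul, mul_inv_cancel, Units.val_one]
  have h2 : ((K⁻¹ : GL (Fin m) F) : Matrix (Fin m) (Fin m) F)ᵀ * (K : Matrix (Fin m) (Fin m) F)ᵀ = 1 := by
    rw [← Matrix.transpose_mul, h1, Matrix.transpose_one]
  have h3 : (K : Matrix (Fin m) (Fin m) F).map (sg hF) * ((K⁻¹ : GL (Fin m) F) : Matrix (Fin m) (Fin m) F).map (sg hF) = 1 := by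
    rw [← Matrix.map_mul, h1, Matrix.map_one _ (map_zero _) (map_one _)]
  calc ((K * x * K⁻¹ : GL (Fin m) F) : Matrix (Fin m) (Fin m) F)ᵀ *
        ((K * x * K⁻¹ : GL (Fin m) F) : Matrix (Fin m) (Fin m) F).map (sg hF)
      = ((K⁻¹ : GL (Fin m) F) : Matrix (Fin m) (Fin m) F)ᵀ * ((x : Matrix (Fin m) (Fin m) F)ᵀ *
          ((K : Matrix (Fin m) (Fin m) F)ᵀ * (K : Matrix (Fin m) (Fin m) F).map (sg hF)) *
          (x : Matrix (Fin m) (Fin m) F).map (sg hF)) * ((K⁻¹ : GL (Fin m) F) : Matrix (Fin m) (Fin m) F).map (sg hF) := by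
        rw [Units.val_mul, Units.val_mul, Matrix.transpose_mul, Matrix.transpose_mul, Matrix.map_mul, Matrix.map_mul]
        simp only [Matrix.mul_assoc]
    _ = ((K⁻¹ : GL (Fin m) F) : Matrix (Fin m) (Fin m) F)ᵀ * ((K : Matrix (Fin m) (Fin m) F)ᵀ *
          (K : Matrix (Fin m) (Fin m) F).map (sg hF)) * ((K⁻¹ : GL (Fin m) F) : Matrix (Fin m) (Fin m) F).map (sg hF) := by
        rw [← hKJ, hx]
    _ = (((K⁻¹ : GL (Fin m) F) : Matrix (Fin m) (Fin m) F)ᵀ * (K : Matrix (Fin m) (Fin m) F)ᵀ) *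
          ((K : Matrix (Fin m) (Fin m) F).map (sg hF) * ((K⁻¹ : GL (Fin m) F) : Matrix (Fin m) (Fin m) F).map (sg hF)) := by
        simp only [Matrix.mul_assoc]
    _ = 1 := by rw [h2, h3, Matrix.one_mul]

/-- the isometries of a sesquilinear form -/
def isom (hF : Fintype.card F = q ^ 2) (J : Matrix (Fin m) (Fin m) F) : Subgroup (GL (Fin m) F) where
  carrier := {x | (x : Matrix (Fin m) (Fin m) F)ᵀ * J * (x : Matrix (Fin m) (Fin m) F).map (sg hF) = J}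
  one_mem' := by
    change ((1 : GL (Fin m) F) : Matrix (Fin m) (Fin m) F)ᵀ * J *
      ((1 : GL (Fin m) F) : Matrix (Fin m) (Fin m) F).map (sg hF) = J
    rw [Units.val_one, Matrix.transpose_one, Matrix.one_mul, Matrix.map_one _ (map_zero _) (map_one _), Matrix.mul_one]
  mul_mem' := by
    intro x y (hx : _ = _) (hy : _ = _)
    change ((x * y : GL (Fin m) F) : Matrix (Fin m) (Fin m) F)ᵀ * J *
      ((x * y : GL (Fin m) F) : Matrix (Fin m) (Fin m) F).map (sg hF) = J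
    rw [Units.val_mul, Matrix.transpose_mul, Matrix.map_mul]
    calc _ = (y : Matrix (Fin m) (Fin m) F)ᵀ * ((x : Matrix (Fin m) (Fin m) F)ᵀ * J *
          (x : Matrix (Fin m) (Fin m) F).map (sg hF)) * (y : Matrix (Fin m) (Fin m) F).map (sg hF) := by
          simp only [Matrix.mul_assoc]
      _ = J := by rw [hx, hy]
  inv_mem' := by
    intro x (hx : _ = _)
    change ((x⁻¹ : GL (Fin m) F) : Matrix (Fin m) (Fin m) F)ᵀ * J *
      ((x⁻¹ : GL (Fin m) F) : Matrix (Fin m) (Fin m) F).map (sg hF) = J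
    have h1 : (x : Matrix (Fin m) (Fin m) F) * ((x⁻¹ : GL (Fin m) F) : Matrix (Fin m) (Fin m) F) = 1 := by
      rw [← Units.val_mul, mul_inv_cancel, Units.val_one]
    have h2 : ((x⁻¹ : GL (Fin m) F) : Matrix (Fin m) (Fin m) F)ᵀ * (x : Matrix (Fin m) (Fin m) F)ᵀ = 1 := by
      rw [← Matrix.transpose_mul, h1, Matrix.transpose_one]
    have h3 : (x : Matrix (Fin m) (Fin m) F).map (sg hF) * ((x⁻¹ : GL (Fin m) F) : Matrix (Fin m) (Fin m) F).map (sg hF) = 1 := by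
      rw [← Matrix.map_mul, h1, Matrix.map_one _ (map_zero _) (map_one _)]
    calc _ = ((x⁻¹ : GL (Fin m) F) : Matrix (Fin m) (Fin m) F)ᵀ * ((x : Matrix (Fin m) (Fin m) F)ᵀ * J *
          (x : Matrix (Fin m) (Fin m) F).map (sg hF)) * ((x⁻¹ : GL (Fin m) F) : Matrix (Fin m) (Fin m) F).map (sg hF) := by
          rw [hx]
      _ = (((x⁻¹ : GL (Fin m) F) : Matrix (Fin m) (Fin m) F)ᵀ * (x : Matrix (Fin m) (Fin m) F)ᵀ) * J *
          ((x : Matrix (Fin m) (Fin m) F).map (sg hF) * ((x⁻¹ : GL (Fin m) F) : Matrix (Fin m) (Fin m) F).map (sg hF)) := by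
          simp only [Matrix.mul_assoc]
      _ = J := by rw [h2, h3, Matrix.one_mul, Matrix.mul_one]

theorem mem_isom {hF : Fintype.card F = q ^ 2} {J : Matrix (Fin m) (Fin m) F} {x : GL (Fin m) F} :
    x ∈ isom hF J ↔ (x : Matrix (Fin m) (Fin m) F)ᵀ * J * (x : Matrix (Fin m) (Fin m) F).map (sg hF) = J := Iff.rfl

variable (e : Fin m × Fin k ≃ Fin n)

/-- the tensor product of two groups, in the coordinates `g` -/
def TG {ι κ ν : Type} [Fintype ι] [Fintype κ] [Fintype ν] [DecidableEq ι] [DecidableEq κ] [DecidableEq ν]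
    (e : ι × κ ≃ ν) (A : Subgroup (GL ι F)) (B : Subgroup (GL κ F)) (g : GL ν F) : Subgroup (GL ν F) where
  carrier := {x | ∃ a ∈ A, ∃ b ∈ B, x = g * krGL e a b * g⁻¹}
  one_mem' := ⟨1, A.one_mem, 1, B.one_mem, by rw [krGL_one, mul_one, mul_inv_cancel]⟩
  mul_mem' := by
    rintro _ _ ⟨a, ha, b, hb, rfl⟩ ⟨a', ha', b', hb', rfl⟩
    refine ⟨a * a', A.mul_mem ha ha', b * b', B.mul_mem hb hb', ?_⟩
    rw [krGL_mul]
    group
  inv_mem' := by
    rintro _ ⟨a, ha, b, hb, rfl⟩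
    refine ⟨a⁻¹, A.inv_mem ha, b⁻¹, B.inv_mem hb, ?_⟩
    rw [← krGL_inv]
    group

/-- scalar matrices -/
theorem sc_mem_TG (hF : Fintype.card F = q ^ 2) (hn : n ≠ 0) {J₁ : Matrix (Fin m) (Fin m) F}
    {B : Subgroup (GL (Fin k) F)} {g : GL (Fin n) F} {c : Fˣ} (hc : (sc c : GL (Fin n) F) ∈ GU n F q) :
    sc c ∈ TG e (isom hF J₁) B g := by
  have hnn : NeZero n := ⟨hn⟩
  have h1 := un_of_mem_GU hF hc
  have h2 : (c : F) * sg hF c = 1 := by
    have h3 := congrFun (congrFun h1 0) 0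
    rw [coe_sc, Matrix.transpose_smul, Matrix.transpose_one, Matrix.smul_mul, Matrix.one_mul, Matrix.smul_apply,
      Matrix.map_apply, Matrix.smul_apply, Matrix.one_apply_eq, smul_eq_mul, smul_eq_mul, mul_one] at h3
    exact h3
  refine ⟨sc c, ?_, 1, B.one_mem, ?_⟩
  · rw [mem_isom, coe_sc, Matrix.transpose_smul, Matrix.transpose_one, Matrix.smul_mul, Matrix.one_mul]
    have e1 : ((c : F) • (1 : Matrix (Fin m) (Fin m) F)).map (sg hF) = (sg hF c) • 1 := by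
      ext i j
      simp only [Matrix.map_apply, Matrix.smul_apply, smul_eq_mul, map_mul, Matrix.one_apply]
      split_ifs <;> simp
    rw [e1, Matrix.mul_smul, Matrix.mul_one, smul_smul, mul_comm, h2, one_smul]
  · have h4 : krGL e (sc c) 1 = (sc c : GL (Fin n) F) := by
      apply Units.ext
      rw [coe_krGL, coe_sc, coe_sc, Units.val_one, kr_smul_left, kr_one]
    rw [h4, ← sc_comm, mul_inv_cancel_right]

/-- **Tensor kill with forms.** -/
theorem kill_TU (hF : Fintype.card F = q ^ 2) (hm : 3 ≤ m) (hk : 2 ≤ k) {H P : Subgroup (GL (Fin n) F)}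
    (hc : IsResidualCore H P) (hH : IsMaximalIn (GU n F q ⊓ specialLinear (Fin n) F) H) {g : GL (Fin n) F}
    {J₁ : Matrix (Fin m) (Fin m) F} {J₂ : Matrix (Fin k) (Fin k) F}
    (hJ₁ : (J₁.map (sg hF))ᵀ = J₁) (hJ₁0 : J₁.det ≠ 0) (hJ₂ : (J₂.map (sg hF))ᵀ = J₂) (hJ₂0 : J₂.det ≠ 0)
    (hHP : ∀ h ∈ H, ∃ x ∈ P, ∃ s ∈ scalars (Fin n) F, h = x * s)
    (hP : P ≤ TG e (isom hF J₁) (isom hF J₂) g) : False := by
  obtain ⟨S, hS⟩ := exists_conj_GU hF hJ₁ hJ₁0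
  obtain ⟨T, hT⟩ := exists_conj_GU hF hJ₂ hJ₂0
  have key : ∀ x ∈ P, ∃ a ∈ GU m F q, ∃ b ∈ GU k F q, x = (g * krGL e S T) * krGL e a b * (g * krGL e S T)⁻¹ := by
    intro x hx
    obtain ⟨a, ha, b, hb, rfl⟩ := hP hx
    refine ⟨_, hS a ha, _, hT b hb, ?_⟩
    rw [krGL_mul, krGL_mul, ← krGL_inv]
    group
  exact kill_SU e hF hm hk hc hH (g * krGL e S T)
    (tensor_of_cover e _ hHP fun x hx => by
      obtain ⟨a, -, b, -, h⟩ := key x hx
      exact ⟨a, b, h⟩) key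

/-- lifts of generators and the scalars of `P` generate `P` -/
theorem le_of_gens {ι : Type} [Fintype ι] [DecidableEq ι] {P : Subgroup (GL ι F)} {T : Type*} [Group T]
    (C : Cov P T) {S : Set T} (hS : Subgroup.closure S = ⊤)
    {Y : Subgroup (GL ι F)} (hY : ∀ s ∈ S, ∃ y ∈ Y, C.L y s) (hsc : ∀ c, sc c ∈ P → sc c ∈ Y) : P ≤ Y := by
  have key : ∀ σ : T, ∃ y ∈ Y, C.L y σ := by
    intro σ
    have h1 : σ ∈ Subgroup.closure S := by rw [hS]; exact Subgroup.mem_top _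
    induction h1 using Subgroup.closure_induction with
    | mem x hx => exact hY x hx
    | one => exact ⟨1, one_mem Y, Cov.L.one⟩
    | mul x y _ _ h h' =>
      obtain ⟨u, hu, hu'⟩ := h
      obtain ⟨v, hv, hv'⟩ := h'
      exact ⟨u * v, mul_mem hu hv, hu'.mul hv'⟩
    | inv x _ h =>
      obtain ⟨u, hu, hu'⟩ := h
      exact ⟨u⁻¹, inv_mem hu, hu'.inv⟩
  intro x hx
  obtain ⟨σ, hσ⟩ := Cov.L.of_mem C hx
  obtain ⟨y, hy, hy'⟩ := key σ
  obtain ⟨c, hc, rfl⟩ := hσ.exists_sc hy'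
  exact mul_mem (hsc c hc) hy

/-- **Tensor kill for `3.A₇`, `6.A₇`** (e.g. `V = U₃ ⊗ U₄*`, `p = 5`). -/
theorem kill_A7_SU (hF : Fintype.card F = q ^ 2) (hm : 3 ≤ m) (hk : 2 ≤ k) {H P : Subgroup (GL (Fin n) F)}
    (hc : IsResidualCore H P) (hH : IsMaximalIn (GU n F q ⊓ specialLinear (Fin n) F) H)
    (C : Cov P (alternatingGroup (Fin 7))) (hz : 3 ∣ Nat.card ((scalars (Fin n) F).subgroupOf P)) {g : GL (Fin n) F}
    {J₁ : Matrix (Fin m) (Fin m) F} {J₂ : Matrix (Fin k) (Fin k) F}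
    (hJ₁ : (J₁.map (sg hF))ᵀ = J₁) (hJ₁0 : J₁.det ≠ 0) (hJ₂ : (J₂.map (sg hF))ᵀ = J₂) (hJ₂0 : J₂.det ≠ 0)
    {S : Set (alternatingGroup (Fin 7))} (hS : Subgroup.closure S = ⊤)
    (hY : ∀ s ∈ S, ∃ y ∈ TG e (isom hF J₁) (isom hF J₂) g, C.L y s) : False := by
  have hn : n ≠ 0 := by
    rintro rfl
    exact (e (⟨0, by omega⟩, ⟨0, by omega⟩)).elim0
  have hne : Nonempty (Fin n) := ⟨⟨0, by omega⟩⟩
  refine kill_TU e hF hm hk hc hH hJ₁ hJ₁0 hJ₂ hJ₂0
    (fun h hh => cover_A7 hc C (exists_three hz) hh) (le_of_gens C hS hY fun c hcP => ?_)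
  exact sc_mem_TG e hF hn (hH.1.le (hc.le hcP)).1

end Cfsg.Agent.H108.TK
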