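import Cfsg.Agent.H108.TK.FiveF
import Cfsg.Agent.H108.TK.Form
import Cfsg.Agent.H825.A7x.Frame
import Cfsg.Agent.H637.A7TwelveMain

/-!
# `6.A₇` in dimension twelve, characteristic five (helper108)

`V = U₃ ⊗ U₄`: `exists_TG`; hence `Cj P 5`, and `P` is not the core of a maximal subgroup of `SU₁₂(5)`.
-/

set_option autoImplicit false
set_option linter.unusedSectionVars false
set_option maxRecDepth 100000

namespace Cfsg.Agent.H108.TK.Five

open Matrix Cfsg Cfsg.Geo Cfsg.Agent.H913.N6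
open Cfsg.Agent.H108.TK
open Cfsg.Agent.H890.A7 (kk gen7 Z6)
open Cfsg.Agent.H890.Y3 (r3 r3' g4)
open scoped commutatorElement
open Cfsg.Agent.H108.Nine (sg)
open Cfsg.Agent.H915.LD (Core Soc toSoc tr core_of_residual Cj SD)

variable {F : Type*} [Field F]

/-- the unitary matrices for `σ` -/
def isoS {m : Type} [Fintype m] [DecidableEq m] (σ : F →+* F) : Subgroup (GL m F) where
  carrier := {x | (x : Matrix m m F)ᵀ * (x : Matrix m m F).map σ = 1}
  one_mem' := by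
    change ((1 : GL m F) : Matrix m m F)ᵀ * ((1 : GL m F) : Matrix m m F).map σ = 1
    rw [Units.val_one, Matrix.transpose_one, Matrix.one_mul, Matrix.map_one _ (map_zero _) (map_one _)]
  mul_mem' := by
    intro x y (hx : _ = _) (hy : _ = _)
    change ((x * y : GL m F) : Matrix m m F)ᵀ * ((x * y : GL m F) : Matrix m m F).map σ = 1
    rw [Units.val_mul, Matrix.transpose_mul, Matrix.map_mul]
    calc _ = (y : Matrix m m F)ᵀ * ((x : Matrix m m F)ᵀ * (x : Matrix m m F).map σ) * (y : Matrix m m F).map σ := by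
          simp only [Matrix.mul_assoc]
      _ = 1 := by rw [hx, Matrix.mul_one, hy]
  inv_mem' := by
    intro x (hx : _ = _)
    change ((x⁻¹ : GL m F) : Matrix m m F)ᵀ * ((x⁻¹ : GL m F) : Matrix m m F).map σ = 1
    have h1 : ((x⁻¹ : GL m F) : Matrix m m F)ᵀ * (x : Matrix m m F)ᵀ = 1 := by
      rw [← Matrix.transpose_mul, ← Units.val_mul, mul_inv_cancel, Units.val_one, Matrix.transpose_one]
    have h2 : (x : Matrix m m F).map σ * ((x⁻¹ : GL m F) : Matrix m m F).map σ = 1 := by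
      rw [← Matrix.map_mul, ← Units.val_mul, mul_inv_cancel, Units.val_one, Matrix.map_one _ (map_zero _) (map_one _)]
    calc _ = ((x⁻¹ : GL m F) : Matrix m m F)ᵀ * ((x : Matrix m m F)ᵀ * (x : Matrix m m F).map σ) *
          ((x⁻¹ : GL m F) : Matrix m m F).map σ := by rw [hx, Matrix.mul_one]
      _ = (((x⁻¹ : GL m F) : Matrix m m F)ᵀ * (x : Matrix m m F)ᵀ) *
          ((x : Matrix m m F).map σ * ((x⁻¹ : GL m F) : Matrix m m F).map σ) := by simp only [Matrix.mul_assoc]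
      _ = 1 := by rw [h1, h2, Matrix.mul_one]

theorem mem_isoS {m : Type} [Fintype m] [DecidableEq m] {σ : F →+* F} {x : GL m F} :
    x ∈ isoS σ ↔ (x : Matrix m m F)ᵀ * (x : Matrix m m F).map σ = 1 := Iff.rfl

variable {ι : Type} [Fintype ι] [DecidableEq ι]

/-- perfect groups and lifts of generators -/
theorem le_of_perfect {P : Subgroup (GL ι F)} (hp : ⁅P, P⁆ = P) {T : Type*} [Group T]
    (C : Cov P T) {S : Set T} (hS : Subgroup.closure S = ⊤)
    {Y : Subgroup (GL ι F)} (hY : ∀ s ∈ S, ∃ y ∈ Y, C.L y s) : P ≤ Y := by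
  have key : ∀ σ : T, ∃ y ∈ Y, C.L y σ := by
    intro σ
    have h1 : σ ∈ Subgroup.closure S := by rw [hS]; exact Subgroup.mem_top _
    induction h1 using Subgroup.closure_induction with
    | mem x hx => exact hY x hx
    | one => exact ⟨1, one_mem Y, Cov.L.one⟩
    | mul x y _ _ h h' =>
      obtain ⟨u, hu, hu'⟩ := h
      obtain ⟨v, hv, hv'⟩ := h'
      exact ⟨u * v, mul_mem hu hv, hu'.mul hv'⟩
    | inv x _ h =>
      obtain ⟨u, hu, hu'⟩ := h
      exact ⟨u⁻¹, inv_mem hu, hu'.inv⟩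
  have key2 : ∀ x ∈ P, ∃ c : Fˣ, ∃ y ∈ Y, x = sc c * y := by
    intro x hx
    obtain ⟨σ, hσ⟩ := Cov.L.of_mem C hx
    obtain ⟨y, hy, hy'⟩ := key σ
    obtain ⟨c, -, hc⟩ := hσ.exists_sc hy'
    exact ⟨c, y, hy, hc⟩
  rw [← hp, Subgroup.commutator_le]
  intro x hx y hy
  obtain ⟨c, x', hx', rfl⟩ := key2 x hx
  obtain ⟨d, y', hy', rfl⟩ := key2 y hy
  have h1 : ∀ z : GL ι F, sc c * z = z * sc c := fun z => sc_comm c z
  have h2 : ∀ z : GL ι F, sc d * z = z * sc d := fun z => sc_comm d z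
  have e : ⁅sc c * x', sc d * y'⁆ = ⁅x', y'⁆ := by
    rw [commutatorElement_def, commutatorElement_def, _root_.mul_inv_rev, _root_.mul_inv_rev]
    have h3 : ∀ z : GL ι F, (sc c)⁻¹ * z = z * (sc c)⁻¹ := fun z => ((show Commute (sc c) z from h1 z).inv_left).eq
    have h4 : ∀ z : GL ι F, (sc d)⁻¹ * z = z * (sc d)⁻¹ := fun z => ((show Commute (sc d) z from h2 z).inv_left).eq
    calc sc c * x' * (sc d * y') * (x'⁻¹ * (sc c)⁻¹) * (y'⁻¹ * (sc d)⁻¹)
        = sc c * (x' * (sc d * (y' * (x'⁻¹ * ((sc c)⁻¹ * (y'⁻¹ * (sc d)⁻¹)))))) := by simp only [mul_assoc]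
      _ = sc c * (x' * (y' * (x'⁻¹ * ((sc c)⁻¹ * (y'⁻¹ * (sc d)⁻¹)))) * sc d) := by
          rw [h2 (y' * (x'⁻¹ * ((sc c)⁻¹ * (y'⁻¹ * (sc d)⁻¹))))]; simp only [mul_assoc]
      _ = (x' * (y' * (x'⁻¹ * ((sc c)⁻¹ * (y'⁻¹ * (sc d)⁻¹)))) * sc d) * sc c := h1 _
      _ = x' * y' * x'⁻¹ * (((sc c)⁻¹ * (y'⁻¹ * (sc d)⁻¹ * sc d)) * sc c) := by simp only [mul_assoc]
      _ = x' * y' * x'⁻¹ * y'⁻¹ := by
          rw [inv_mul_cancel_right, h3 y'⁻¹, inv_mul_cancel_right]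
  rw [e]
  rw [commutatorElement_def]
  exact mul_mem (mul_mem (mul_mem hx' hy') (inv_mem hx')) (inv_mem hy')

theorem mem_of_eq {e : Fin 3 × Fin 4 ≃ ι} {u y : GL ι F} {A₀ : Matrix (Fin 3) (Fin 3) F} {B₀ : Matrix (Fin 4) (Fin 4) F}
    {A : GL (Fin 3) F} {B : GL (Fin 4) F} (hA₀ : (A : Matrix (Fin 3) (Fin 3) F) = A₀)
    (hB₀ : (B : Matrix (Fin 4) (Fin 4) F) = B₀)
    (h : (y : Matrix ι ι F) = (u : Matrix ι ι F) * kr e A₀ B₀ * ((u⁻¹ : GL ι F) : Matrix ι ι F)) :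
    y = u * krGL e A B * u⁻¹ := by
  apply Units.ext
  rw [h, Units.val_mul, Units.val_mul, coe_krGL, hA₀, hB₀]

/-- **`V = U₃ ⊗ U₄` for `6.A₇` in dimension twelve, characteristic five.** -/
theorem exists_TG [Finite F] [CharP F 5] {P : Subgroup (GL ι F)} (hC : Core P)
    (e' : Soc P ≃* alternatingGroup (Fin 7)) (hn : Fintype.card ι = 12)
    (hz : ∃ c : Fˣ, c ≠ 1 ∧ c ^ 3 = 1 ∧ (sc c : GL ι F) ∈ P) (hneg : (sc (-1 : Fˣ) : GL ι F) ∈ P) :
    ∃ (ω : F) (e : Fin 3 × Fin 4 ≃ ι) (u : GL ι F), ω ^ 2 + ω + 1 = 0 ∧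
      ∀ σ : F →+* F, σ ω = ω ^ 2 → P ≤ TG e (isoS σ) (isoS σ) u := by
  have hι : Nonempty ι := Fintype.card_pos_iff.1 (by omega)
  have h5 : (5 : F) = 0 := h5F
  have h2 : (2 : F) ≠ 0 := by
    intro h
    have : (1 : F) = 0 := by linear_combination h5 - 2 * h
    exact one_ne_zero this
  obtain ⟨ω, L, a, b, k, g, ψ, x, d₀, d₁, d₂, t, X, Z, N, p₀, p₁, p₂, q₀, q₁, q₂, La, Lb, Lk, Lg, ha, hb, hk, hg, hB,
    hS, E, I, hL⟩ := Cfsg.Agent.H825.A7x.exists_frame hC (Cov.of e') (Cfsg.Agent.H825.A7x.z6_of' hC e') hn hz h2 hneg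
  obtain ⟨S, ε, hε, hX, hZ, hN⟩ := Cfsg.Agent.H930.A7s.eqs_normal E I h5 hL
  have hω := hB.hω
  obtain ⟨e, u, ea, eb, ek, eg⟩ := exists_tensor (ω := (ω : F)) hω ψ (a := (a : Matrix ι ι F)) (b := (b : Matrix ι ι F))
    (k := (k : Matrix ι ι F)) (g := (g : Matrix ι ι F)) ha hb hk hg
    (by rw [hB.e0, one_smul, neg_smul, one_smul]; unfold Cfsg.Agent.H825.A7x.SD; rw [mul_one, one_smul])
    (by rw [hB.e1, one_smul, neg_smul, one_smul]; rfl)
    (by rw [hB.e2, one_smul, neg_smul, one_smul]; rfl) hS.x_eq hX hZ hN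
  refine ⟨ω, e, u, hω, fun σ hσ => le_of_perfect hC.perfect (Cov.of e') gen7 ?_⟩
  intro s hs
  simp only [Set.mem_insert_iff, Set.mem_singleton_iff] at hs
  rcases hs with rfl | rfl | rfl | rfl
  · exact ⟨a, ⟨toGL hω Aa uAa, toGL_isom hω Aa uAa hσ, toGL hω Ba uBa, toGL_isom hω Ba uBa hσ,
      mem_of_eq rfl rfl ea⟩, La⟩
  · exact ⟨b, ⟨toGL hω Ab uAb, toGL_isom hω Ab uAb hσ, toGL hω Bb uBb, toGL_isom hω Bb uBb hσ,
      mem_of_eq rfl rfl eb⟩, Lb⟩
  · exact ⟨k, ⟨toGL hω Ak uAk, toGL_isom hω Ak uAk hσ, toGL hω Bk uBk, toGL_isom hω Bk uBk hσ,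
      mem_of_eq rfl rfl ek⟩, Lk⟩
  · rcases hε with rfl | rfl
    · rw [one_smul] at eg
      exact ⟨g, ⟨toGL hω Ag uAg, toGL_isom hω Ag uAg hσ, toGL hω Bg uBg, toGL_isom hω Bg uBg hσ,
        mem_of_eq rfl rfl eg⟩, Lg⟩
    · refine ⟨g, ⟨toGL hω Ag uAg, toGL_isom hω Ag uAg hσ, -toGL hω Bg uBg, ?_,
        mem_of_eq (A₀ := Ag.map (phi hω)) (B₀ := -(Bg.map (phi hω))) rfl rfl ?_⟩, Lg⟩
      · rw [mem_isoS]
        have h1 := toGL_isom hω Bg uBg hσ
        rw [Units.val_neg, Matrix.transpose_neg]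
        have h3 : (-(toGL hω Bg uBg : Matrix (Fin 4) (Fin 4) F)).map σ = -((toGL hω Bg uBg : Matrix (Fin 4) (Fin 4) F).map σ) := by
          ext i j
          exact map_neg σ _
        rw [h3, neg_mul_neg]
        exact h1
      · rw [eg, neg_smul, one_smul]
        have h1 : kr e (Ag.map (phi hω)) (-(Bg.map (phi hω))) = -kr e (Ag.map (phi hω)) (Bg.map (phi hω)) := by
          rw [← neg_one_smul F (Bg.map (phi hω)), kr_smul_right, neg_one_smul]
        rw [h1, mul_neg, neg_mul]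

/-- the trace of the inverse of a unitary matrix -/
theorem trace_inv {m : Type} [Fintype m] [DecidableEq m] {σ : F →+* F} {x : GL m F} (hx : x ∈ isoS σ) :
    ((x⁻¹ : GL m F) : Matrix m m F).trace = σ (x : Matrix m m F).trace := by
  rw [mem_isoS] at hx
  have h1 : ((x : Matrix m m F).map σ)ᵀ * (x : Matrix m m F) = 1 := by
    rw [← Matrix.transpose_inj, Matrix.transpose_mul, Matrix.transpose_transpose, hx, Matrix.transpose_one]
  have h2 : ((x⁻¹ : GL m F) : Matrix m m F) = ((x : Matrix m m F).map σ)ᵀ := by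
    calc ((x⁻¹ : GL m F) : Matrix m m F) = (((x : Matrix m m F).map σ)ᵀ * (x : Matrix m m F)) * ((x⁻¹ : GL m F) : Matrix m m F) := by
          rw [h1, Matrix.one_mul]
      _ = _ := by rw [Matrix.mul_assoc, ← Units.val_mul, mul_inv_cancel, Units.val_one, Matrix.mul_one]
  rw [h2, Matrix.trace_transpose, Matrix.trace, Matrix.trace, map_sum]
  rfl

theorem trace_kr {e : Fin 3 × Fin 4 ≃ ι} (A : Matrix (Fin 3) (Fin 3) F) (B : Matrix (Fin 4) (Fin 4) F) :
    (kr e A B).trace = A.trace * B.trace := by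
  change ∑ l, kr e A B l l = (∑ i, A i i) * ∑ j, B j j
  rw [sum_ix e, Finset.sum_mul_sum]
  exact Finset.sum_congr rfl fun i _ => Finset.sum_congr rfl fun j _ => kr_ix e A B i i j j

theorem tr_TG {e : Fin 3 × Fin 4 ≃ ι} {u : GL ι F} {σ : F →+* F} {g : GL ι F}
    (hg : g ∈ TG e (isoS σ) (isoS σ) u) : tr g⁻¹ = σ (tr g) := by
  obtain ⟨A, hA, B, hB, rfl⟩ := hg
  have h1 : (u * krGL e A B * u⁻¹)⁻¹ = u * krGL e A⁻¹ B⁻¹ * u⁻¹ := by
    rw [← krGL_inv]
    group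
  have h2 : ∀ (A : GL (Fin 3) F) (B : GL (Fin 4) F), tr (u * krGL e A B * u⁻¹) =
      (A : Matrix (Fin 3) (Fin 3) F).trace * (B : Matrix (Fin 4) (Fin 4) F).trace := by
    intro A B
    rw [Cfsg.Agent.H915.LD.tr_conj]
    exact trace_kr _ _
  rw [h1, h2, h2, map_mul, trace_inv hA, trace_inv hB]

/-- **`6.A₇` in dimension twelve, characteristic five: `x ↦ x⁵` is the dual.** -/
theorem cj_five [Finite F] [CharP F 5] {P : Subgroup (GL ι F)} (hC : Core P)
    (e' : Soc P ≃* alternatingGroup (Fin 7)) (hn : Fintype.card ι = 12)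
    (hz : ∃ c : Fˣ, c ≠ 1 ∧ c ^ 3 = 1 ∧ (sc c : GL ι F) ∈ P) (hneg : (sc (-1 : Fˣ) : GL ι F) ∈ P) : Cj P 5 := by
  have h5p : Fact (Nat.Prime 5) := ⟨by norm_num⟩
  obtain ⟨ω, e, u, hω, h⟩ := exists_TG hC e' hn hz hneg
  intro g hg
  have h1 := tr_TG (h (frobenius F 5) (by
    rw [frobenius_def]
    linear_combination (ω ^ 3 - ω ^ 2) * hω) hg)
  rw [h1, frobenius_def]

/-- **`A₇` in dimension twelve.** -/
theorem a7_twelve [Finite F] (p : ℕ) [Fact p.Prime] [CharP F p] {P : Subgroup (GL ι F)} (hC : Core P)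
    (e' : Soc P ≃* alternatingGroup (Fin 7)) (hn : Fintype.card ι = 12) : SD P ∨ (p = 5 ∧ Cj P 5) := by
  rcases Cfsg.Agent.H637.Three.twelve p hC e' hn with h | ⟨hp2, -, hneg, hz⟩
  · exact Or.inl h
  · right
    have h2 : (2 : F) ≠ 0 := by
      intro h
      have h3 : ((2 : ℕ) : F) = 0 := by exact_mod_cast h
      rw [CharP.cast_eq_zero_iff F p] at h3
      exact hp2 ((Nat.prime_dvd_prime_iff_eq Fact.out Nat.prime_two).1 h3)
    have h5 := Cfsg.Agent.H825.A7x.twelve_six hC e' hn hz h2 hneg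
    have hp5 : p = 5 := by
      have h3 : ((5 : ℕ) : F) = 0 := by exact_mod_cast h5
      rw [CharP.cast_eq_zero_iff F p] at h3
      exact (Nat.prime_dvd_prime_iff_eq Fact.out (by norm_num)).1 h3
    subst hp5
    exact ⟨rfl, cj_five hC e' hn hz hneg⟩

/-- **`6.A₇` is not the core of a maximal subgroup of `SU₁₂(q)`, `5 ∣ q`.** -/
theorem su_false [Fintype F] [CharP F 5] {q : ℕ} (hF : Fintype.card F = q ^ 2) {H P : Subgroup (GL (Fin 12) F)}
    (hc : IsResidualCore H P) (hH : IsMaximalIn (GU 12 F q ⊓ specialLinear (Fin 12) F) H)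
    (e' : Soc P ≃* alternatingGroup (Fin 7)) (hz : 3 ∣ Nat.card ((scalars (Fin 12) F).subgroupOf P)) : False := by
  have hC := core_of_residual hc
  obtain ⟨c, hc1, hc3, hcP⟩ := exists_three hz
  have h12 : Fintype.card (Fin 12) = 12 := by simp
  have h5 : (5 : F) = 0 := h5F
  have hneg : (sc (-1 : Fˣ) : GL (Fin 12) F) ∈ P := by
    have h5p : Fact (Nat.Prime 5) := ⟨by norm_num⟩
    rcases Cfsg.Agent.H637.Three.twelve 5 hC e' h12 with h | ⟨-, -, h, -⟩
    · exfalso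
      have h1 := h (sc c) hcP
      have h2 : ∀ d : Fˣ, tr (sc d : GL (Fin 12) F) = 12 * (d : F) := by
        intro d
        unfold tr
        rw [coe_sc, Matrix.trace_smul, Matrix.trace_one, smul_eq_mul, Fintype.card_fin]
        push_cast
        ring
      rw [← sc_inv, h2, h2] at h1
      have h3 : ((c⁻¹ : Fˣ) : F) = c := by linear_combination 3 * h1 + (-7 * ((c⁻¹ : Fˣ) : F) + 7 * (c : F)) * h5
      apply hc1
      have h4 : c⁻¹ = c := Units.ext h3
      have h6 : c * c = 1 := by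
        nth_rewrite 1 [← h4]
        exact inv_mul_cancel c
      have h7 : c ^ 3 = c := by rw [pow_succ, pow_two, h6, one_mul]
      rw [← h7, hc3]
    · exact h
  obtain ⟨ω, e, u, hω, h⟩ := exists_TG hC e' h12 ⟨c, hc1, hc3, hcP⟩ hneg
  -- `σ ω = ω²`
  have hcu : (c : F) * sg hF c = 1 := by
    have h1 := un_of_mem_GU hF (hH.1.le (hc.le hcP)).1
    have h3 := congrFun (congrFun h1 0) 0
    rw [coe_sc, Matrix.transpose_smul, Matrix.transpose_one, Matrix.smul_mul, Matrix.one_mul, Matrix.smul_apply,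
      Matrix.map_apply, Matrix.smul_apply, Matrix.one_apply_eq, smul_eq_mul, smul_eq_mul, mul_one] at h3
    exact h3
  have hcω : (c : F) ^ 2 + c + 1 = 0 := by
    have h1 : ((c : F) - 1) * ((c : F) ^ 2 + c + 1) = 0 := by
      have h3 : (c : F) ^ 3 = 1 := by rw [← Units.val_pow_eq_pow_val, hc3, Units.val_one]
      linear_combination h3
    rcases mul_eq_zero.1 h1 with h2 | h2
    · exfalso
      apply hc1
      apply Units.ext
      rw [sub_eq_zero] at h2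
      exact h2
    · exact h2
  have hsc : sg hF (c : F) = (c : F) ^ 2 := by
    have h3 : (c : F) * (c : F) ^ 2 = 1 := by
      have h3 : (c : F) ^ 3 = 1 := by rw [← Units.val_pow_eq_pow_val, hc3, Units.val_one]
      linear_combination h3
    have h0 : (c : F) ≠ 0 := c.ne_zero
    exact mul_left_cancel₀ h0 (hcu.trans h3.symm)
  have hσ : (sg hF : F →+* F) ω = ω ^ 2 := by
    have h1 : (ω - c) * (ω - (c : F) ^ 2) = 0 := by
      linear_combination hω - hcω * ω + ((c : F) - 1) * hcω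
    rcases mul_eq_zero.1 h1 with h2 | h2
    · rw [sub_eq_zero] at h2
      rw [h2]
      exact hsc
    · rw [sub_eq_zero] at h2
      rw [h2, map_pow]
      have h3 : (sg hF : F →+* F) (c : F) = (c : F) ^ 2 := hsc
      rw [h3]
  have hP := h (sg hF) hσ
  refine kill_A7_SU e hF (by norm_num) (by norm_num) hc hH (Cov.of e') hz (g := u) (J₁ := 1) (J₂ := 1) ?_ ?_ ?_ ?_
    (S := ⊤) (by simp) ?_
  · rw [Matrix.map_one _ (map_zero _) (map_one _), Matrix.transpose_one]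
  · rw [Matrix.det_one]; exact one_ne_zero
  · rw [Matrix.map_one _ (map_zero _) (map_one _), Matrix.transpose_one]
  · rw [Matrix.det_one]; exact one_ne_zero
  · intro s _
    obtain ⟨y, hy⟩ := (Cov.of e').exists_lift s
    obtain ⟨A, hA, B, hB, h1⟩ := hP hy.1
    exact ⟨y, ⟨A, by rw [mem_isom, Matrix.mul_one]; exact hA, B, by rw [mem_isom, Matrix.mul_one]; exact hB, h1⟩, hy⟩

end Cfsg.Agent.H108.TK.Five
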