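import Cfsg.Agent.H108.TK.Basic

/-!
# Algebra isomorphisms of matrix algebras are inner (helper108)
-/

set_option autoImplicit false
set_option linter.unusedSectionVars false

namespace Cfsg.Agent.H108.TK

open Matrix

/-- Skolem–Noether, in coordinates. -/
theorem exists_conj_alg {ι ν : Type*} [Fintype ι] [DecidableEq ι] [Fintype ν] [DecidableEq ν] {F : Type*} [Field F]
    (Ψ : Matrix ι ι F ≃ₐ[F] Matrix ν ν F) : ∃ (e : ν ≃ ι) (u : GL ι F), ∀ A : Matrix ι ι F,
      A = (u : Matrix ι ι F) * Matrix.reindex e e (Ψ A) * ((u⁻¹ : GL ι F) : Matrix ι ι F) := by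
  let f : Module.End F (ι → F) ≃ₐ[F] Module.End F (ν → F) :=
    (Matrix.toLinAlgEquiv' (R := F) (n := ι)).symm.trans (Ψ.trans (Matrix.toLinAlgEquiv' (R := F) (n := ν)))
  obtain ⟨T, hT⟩ := AlgEquiv.eq_linearEquivConjAlgEquiv f
  have hcard : Fintype.card ν = Fintype.card ι := by
    have h := T.finrank_eq
    rw [Module.finrank_fintype_fun_eq_card, Module.finrank_fintype_fun_eq_card] at h
    exact h.symm
  obtain ⟨e⟩ : Nonempty (ν ≃ ι) := Fintype.card_eq.1 hcard
  let M : Matrix ν ι F := LinearMap.toMatrix' (T : (ι → F) →ₗ[F] (ν → F))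
  let N : Matrix ι ν F := LinearMap.toMatrix' (T.symm : (ν → F) →ₗ[F] (ι → F))
  have hNM : N * M = 1 := by
    rw [← LinearMap.toMatrix'_comp, LinearEquiv.symm_comp, LinearMap.toMatrix'_id]
  have hMN : M * N = 1 := by
    rw [← LinearMap.toMatrix'_comp, LinearEquiv.comp_symm, LinearMap.toMatrix'_id]
  have key : ∀ A : Matrix ι ι F, A = N * Ψ A * M := by
    intro A
    have h1 : Ψ A = M * A * N := by
      have h2 := DFunLike.congr_fun hT (Matrix.toLinAlgEquiv' A)
      have h3 : f (Matrix.toLinAlgEquiv' A) = Matrix.toLinAlgEquiv' (Ψ A) := by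
        change Matrix.toLinAlgEquiv' (Ψ ((Matrix.toLinAlgEquiv').symm (Matrix.toLinAlgEquiv' A))) = _
        rw [AlgEquiv.symm_apply_apply]
      rw [h3] at h2
      have h4 : Ψ A = LinearMap.toMatrix' (Matrix.toLinAlgEquiv' (Ψ A)) := by
        exact (LinearMap.toMatrix'_toLin' (Ψ A)).symm
      rw [h4, h2]
      have h5 : T.conjAlgEquiv F (Matrix.toLinAlgEquiv' A) =
          (T : (ι → F) →ₗ[F] (ν → F)) ∘ₗ (Matrix.toLin' A) ∘ₗ (T.symm : (ν → F) →ₗ[F] (ι → F)) := rfl
      rw [h5, LinearMap.toMatrix'_comp, LinearMap.toMatrix'_comp, LinearMap.toMatrix'_toLin', Matrix.mul_assoc]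
    rw [h1]
    calc A = (N * M) * A * (N * M) := by rw [hNM, Matrix.one_mul, Matrix.mul_one]
      _ = _ := by simp only [Matrix.mul_assoc]
  refine ⟨e, ⟨N.submatrix id e.symm, M.submatrix e.symm id, ?_, ?_⟩, fun A => ?_⟩
  · rw [Matrix.submatrix_mul_equiv, hNM]
    exact Matrix.submatrix_id_id _
  · have h1 : M.submatrix e.symm id * N.submatrix id e.symm = (M * N).submatrix e.symm e.symm :=
      (Matrix.submatrix_mul _ _ _ _ _ Function.bijective_id).symm
    rw [h1, hMN]
    exact Matrix.submatrix_one_equiv _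
  · change A = N.submatrix id e.symm * (Ψ A).submatrix e.symm e.symm * M.submatrix e.symm id
    rw [Matrix.submatrix_mul_equiv, Matrix.submatrix_mul_equiv, ← key A]
    exact (Matrix.submatrix_id_id _).symm

end Cfsg.Agent.H108.TK
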