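import Cfsg.Agent.H108.TK.FiveMat
import Cfsg.Agent.H108.TK.Sko
import Cfsg.Agent.H930.A7s.Bridge

/-!
# `6.A₇` in dimension twelve, characteristic five: the explicit matrices over `F` (helper108)
-/

set_option autoImplicit false
set_option linter.unusedSectionVars false
set_option maxRecDepth 100000

namespace Cfsg.Agent.H108.TK.Five

open Matrix Cfsg.Agent.H890.A7
open scoped Kronecker

section phi

variable {F : Type*} [Field F] [CharP F 5] {ω : F}

/-- `F₅[w] → F`, `w ↦ ω` -/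
noncomputable def phi (hω : ω ^ 2 + ω + 1 = 0) : Ra →+* F :=
  letI := ZMod.algebra F 5
  (QuadraticAlgebra.lift (R := ZMod 5) (a := -1) (b := -1) (A := F) ⟨ω, by
    rw [neg_smul, neg_smul, one_smul, one_smul]
    linear_combination hω⟩ : Ra →ₐ[ZMod 5] F).toRingHom

theorem phi_apply (hω : ω ^ 2 + ω + 1 = 0) (z : Ra) :
    phi hω z = ZMod.castHom (dvd_refl 5) F z.re + ZMod.castHom (dvd_refl 5) F z.im * ω := by
  letI := ZMod.algebra F 5
  have h : phi hω z = z.re • (1 : F) + z.im • ω := rfl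
  rw [h, Algebra.smul_def, Algebra.smul_def, mul_one]
  rfl

theorem phi_mk (hω : ω ^ 2 + ω + 1 = 0) (a b : ℕ) :
    phi hω ⟨(a : ZMod 5), (b : ZMod 5)⟩ = (a : F) + (b : F) * ω := by
  rw [phi_apply]
  change ZMod.castHom (dvd_refl 5) F (a : ZMod 5) + ZMod.castHom (dvd_refl 5) F (b : ZMod 5) * ω = _
  rw [map_natCast, map_natCast]

theorem phi_w (hω : ω ^ 2 + ω + 1 = 0) : phi hω w = ω := by
  have := phi_mk hω 0 1
  rw [Nat.cast_zero, Nat.cast_one, Nat.cast_zero, Nat.cast_one, zero_add, one_mul] at this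
  exact this

/-- the Frobenius -/
theorem phi_cj (hω : ω ^ 2 + ω + 1 = 0) {σ : F →+* F} (hσ : σ ω = ω ^ 2) (z : Ra) :
    σ (phi hω z) = phi hω (cj z) := by
  have h5 : ∀ y : ZMod 5, σ (ZMod.castHom (dvd_refl 5) F y) = ZMod.castHom (dvd_refl 5) F y := fun y => by
    have h : σ.comp (ZMod.castHom (dvd_refl 5) F) = ZMod.castHom (dvd_refl 5) F := Subsingleton.elim _ _
    exact RingHom.congr_fun h y
  rw [phi_apply, phi_apply, map_add, map_mul, h5, h5, hσ]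
  change _ = ZMod.castHom (dvd_refl 5) F (z.re - z.im) + ZMod.castHom (dvd_refl 5) F (-z.im) * ω
  rw [map_sub, map_neg]
  linear_combination ZMod.castHom (dvd_refl 5) F z.im * hω

theorem map_cj (hω : ω ^ 2 + ω + 1 = 0) {σ : F →+* F} (hσ : σ ω = ω ^ 2) {m : Type*} (A : Matrix m m Ra) :
    (A.map (phi hω)).map σ = (A.map cj).map (phi hω) := by
  ext i j
  exact phi_cj hω hσ (A i j)

variable {m : Type*} [Fintype m] [DecidableEq m]

/-- a unitary matrix over `F₅[w]` in `GL` -/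
noncomputable def toGL (hω : ω ^ 2 + ω + 1 = 0) (A : Matrix m m Ra) (h : Aᵀ * A.map cj = 1) : GL m F :=
  ⟨A.map (phi hω), ((A.map cj)ᵀ).map (phi hω), by
    rw [← Matrix.map_mul]
    have h1 : (A.map cj)ᵀ * A = 1 := by
      rw [← Matrix.transpose_inj, Matrix.transpose_mul, Matrix.transpose_transpose, h, Matrix.transpose_one]
    rw [mul_eq_one_comm.1 h1]
    exact Matrix.map_one _ (map_zero _) (map_one _), by
    rw [← Matrix.map_mul]
    have h1 : (A.map cj)ᵀ * A = 1 := by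
      rw [← Matrix.transpose_inj, Matrix.transpose_mul, Matrix.transpose_transpose, h, Matrix.transpose_one]
    rw [h1]
    exact Matrix.map_one _ (map_zero _) (map_one _)⟩

theorem toGL_isom (hω : ω ^ 2 + ω + 1 = 0) (A : Matrix m m Ra) (h : Aᵀ * A.map cj = 1) {σ : F →+* F}
    (hσ : σ ω = ω ^ 2) :
    (toGL hω A h : Matrix m m F)ᵀ * (toGL hω A h : Matrix m m F).map σ = 1 := by
  change (A.map (phi hω))ᵀ * (A.map (phi hω)).map σ = 1
  rw [map_cj hω hσ, ← Matrix.transpose_map, ← Matrix.map_mul, h]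
  exact Matrix.map_one _ (map_zero _) (map_one _)

/-- the change of basis -/
noncomputable def GF (hω : ω ^ 2 + ω + 1 = 0) : GL N12 F :=
  ⟨G.map (phi hω), Gi.map (phi hω), by
    rw [← Matrix.map_mul, G_mul_Gi]
    exact Matrix.map_one _ (map_zero _) (map_one _), by
    rw [← Matrix.map_mul, Gi_mul_G]
    exact Matrix.map_one _ (map_zero _) (map_one _)⟩

/-- the tensor factorization -/
theorem fact (hω : ω ^ 2 + ω + 1 = 0) {V : Matrix N12 N12 Ra} {A : Matrix (Fin 3) (Fin 3) Ra}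
    {B : Matrix (Fin 4) (Fin 4) Ra} (h : V * G = G * (A ⊗ₖ B)) :
    V.map (phi hω) = (GF hω : Matrix N12 N12 F) * ((A.map (phi hω)) ⊗ₖ (B.map (phi hω))) *
      ((GF hω)⁻¹ : GL N12 F) := by
  have h1 : V = G * (A ⊗ₖ B) * Gi := by
    rw [← h, Matrix.mul_assoc, G_mul_Gi, Matrix.mul_one]
  have h2 : (A ⊗ₖ B).map (phi hω) = (A.map (phi hω)) ⊗ₖ (B.map (phi hω)) := by
    ext ⟨i, j⟩ ⟨k, l⟩
    exact map_mul (phi hω) _ _
  rw [h1, Matrix.map_mul, Matrix.map_mul, h2]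
  rfl

end phi

section link

variable {F : Type*} [Field F]

/-- `M₃(M₂(M₂ F)) ≃ M₁₂ F` -/
noncomputable def unc : Matrix (Fin 3) (Fin 3) (Matrix (Fin 2) (Fin 2) (Matrix (Fin 2) (Fin 2) F)) ≃ₐ[F]
    Matrix N12 N12 F :=
  (AlgEquiv.mapMatrix ((Matrix.compAlgEquiv (Fin 2) (Fin 2) F F).trans
    (Matrix.reindexAlgEquiv F F (finProdFinEquiv : Fin 2 × Fin 2 ≃ Fin 4)))).trans
    (Matrix.compAlgEquiv (Fin 3) (Fin 4) F F)

theorem unc_apply (M : Matrix (Fin 3) (Fin 3) (Matrix (Fin 2) (Fin 2) (Matrix (Fin 2) (Fin 2) F))) (p q : N12) :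
    unc M p q = M p.1 q.1 (hi p.2) (hi q.2) (lo p.2) (lo q.2) := rfl

theorem hl (p q : Fin 4) : (hi p = hi q ∧ lo p = lo q) ↔ p = q := by revert p q; decide

theorem one_entry (p q : Fin 4) : (1 : Matrix (Fin 2) (Fin 2) (Matrix (Fin 2) (Fin 2) F)) (hi p) (hi q) (lo p) (lo q) =
    if p = q then 1 else 0 := by
  have h1 : (1 : Matrix (Fin 2) (Fin 2) (Matrix (Fin 2) (Fin 2) F)) (hi p) (hi q) =
    if hi p = hi q then 1 else 0 := Matrix.one_apply
  rw [h1]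
  by_cases h : hi p = hi q
  · rw [if_pos h, Matrix.one_apply]
    by_cases h2 : lo p = lo q
    · rw [if_pos h2, if_pos ((hl p q).1 ⟨h, h2⟩)]
    · rw [if_neg h2, if_neg (fun h3 => h2 ((hl p q).2 h3).2)]
  · rw [if_neg h, if_neg (fun h3 => h ((hl p q).2 h3).1)]
    rfl

variable [CharP F 5] {ω : F} (hω : ω ^ 2 + ω + 1 = 0)

theorem unc_a3 : unc (a3 ω) = Va.map (phi hω) := by
  ext ⟨i, p⟩ ⟨j, q⟩
  rw [unc_apply, a3_apply, Matrix.map_apply]
  change (if i = j then (ω ^ (j : ℕ)) • (1 : Matrix (Fin 2) (Fin 2) (Matrix (Fin 2) (Fin 2) F)) else 0) (hi p) (hi q)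
    (lo p) (lo q) = phi hω (if (i, p) = (j, q) then w ^ (i : ℕ) else 0)
  by_cases h : i = j
  · subst h
    rw [if_pos rfl, Matrix.smul_apply, Matrix.smul_apply]
    rw [one_entry, smul_eq_mul]
    by_cases h2 : p = q
    · subst h2
      rw [if_pos rfl, if_pos rfl, map_pow, phi_w, mul_one]
    · rw [if_neg h2, if_neg (fun h3 => h2 (Prod.ext_iff.1 h3).2), mul_zero, map_zero]
  · rw [if_neg h, if_neg (fun h3 => h (Prod.ext_iff.1 h3).1), map_zero]
    rfl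

theorem unc_b3 : unc (b3 : Matrix (Fin 3) (Fin 3) (Matrix (Fin 2) (Fin 2) (Matrix (Fin 2) (Fin 2) F))) =
    Vb.map (phi hω) := by
  ext ⟨i, p⟩ ⟨j, q⟩
  rw [unc_apply, b3_apply, Matrix.map_apply]
  change (if i = j + 1 then (1 : Matrix (Fin 2) (Fin 2) (Matrix (Fin 2) (Fin 2) F)) else 0) (hi p) (hi q)
    (lo p) (lo q) = phi hω (if i = j + 1 ∧ p = q then 1 else 0)
  by_cases h : i = j + 1
  · rw [if_pos h, one_entry]
    by_cases h2 : p = q
    · rw [if_pos h2, if_pos ⟨h, h2⟩, map_one]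
    · rw [if_neg h2, if_neg (fun h3 => h2 h3.2), map_zero]
  · rw [if_neg h, if_neg (fun h3 => h h3.1), map_zero]
    rfl

/-- matrices of scalars -/
def sc2 (A : Matrix (Fin 2) (Fin 2) F) : Matrix (Fin 2) (Fin 2) (Matrix (Fin 2) (Fin 2) F) :=
  A.map fun c => c • (1 : Matrix (Fin 2) (Fin 2) F)

theorem sc2_entry (A : Matrix (Fin 2) (Fin 2) F) (a b c d : Fin 2) :
    sc2 A a b c d = if c = d then A a b else 0 := by
  change (A a b • (1 : Matrix (Fin 2) (Fin 2) F)) c d = _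
  rw [Matrix.smul_apply, Matrix.one_apply, smul_eq_mul, mul_ite, mul_one, mul_zero]

theorem h5F : (5 : F) = 0 := by
  have := CharP.cast_eq_zero F 5
  exact_mod_cast this

theorem th_ne (hω : ω ^ 2 + ω + 1 = 0) : ω - ω ^ 2 ≠ 0 := by
  intro h
  have h5 : (5 : F) = 0 := h5F
  have h1 : (1 : F) = 0 := by
    linear_combination 2 * ((ω ^ 2 - 3 * ω + 3) * hω - (ω - ω ^ 2) * h) - h5
  exact one_ne_zero h1

/-- the blocks of `k` -/
theorem eq_sc2 {d : Matrix (Fin 2) (Fin 2) (Matrix (Fin 2) (Fin 2) F)} {A : Matrix (Fin 2) (Fin 2) F}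
    (hω : ω ^ 2 + ω + 1 = 0) (h : (ω - ω ^ 2) • d = sc2 ((ω - ω ^ 2) • A)) : d = sc2 A := by
  have h1 : sc2 ((ω - ω ^ 2) • A) = (ω - ω ^ 2) • sc2 A := by
    ext a b c e
    rw [sc2_entry, Matrix.smul_apply, Matrix.smul_apply, Matrix.smul_apply]
    rw [sc2_entry, smul_eq_mul, smul_eq_mul, mul_ite, mul_zero]
  rw [h1] at h
  exact smul_right_injective _ (th_ne hω) h

theorem sc2_of {a b c d : F} : sc2 !![a, b; c, d] = !![a • 1, b • 1; c • 1, d • 1] := by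
  ext i j
  fin_cases i <;> fin_cases j <;> rfl

theorem ofNat_smul_one (n : ℕ) [n.AtLeastTwo] : (OfNat.ofNat n : Matrix (Fin 2) (Fin 2) F) = (OfNat.ofNat n : F) • 1 := by
  rw [← Nat.cast_ofNat (R := Matrix (Fin 2) (Fin 2) F), ← Nat.cast_ofNat (R := F), Nat.cast_smul_eq_nsmul, nsmul_one]

theorem map2 (A : Matrix (Fin 2) (Fin 2) Ra) : A.map (phi hω) =
    !![phi hω (A 0 0), phi hω (A 0 1); phi hω (A 1 0), phi hω (A 1 1)] := by
  ext i j
  fin_cases i <;> fin_cases j <;> rfl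

theorem smul_two (c : F) (a b d e : F) : c • !![a, b; d, e] = !![c * a, c * b; c * d, c * e] := by
  ext i j
  fin_cases i <;> fin_cases j <;> rfl

theorem d_eq {d : Matrix (Fin 2) (Fin 2) (Matrix (Fin 2) (Fin 2) F)} {A : Matrix (Fin 2) (Fin 2) Ra} {a b c e : F}
    (h : (ω - ω ^ 2) • d = !![a • 1, b • 1; c • 1, e • 1]) (h00 : (ω - ω ^ 2) * phi hω (A 0 0) = a)
    (h01 : (ω - ω ^ 2) * phi hω (A 0 1) = b) (h10 : (ω - ω ^ 2) * phi hω (A 1 0) = c)
    (h11 : (ω - ω ^ 2) * phi hω (A 1 1) = e) : d = sc2 (A.map (phi hω)) := by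
  apply eq_sc2 hω
  rw [h, map2, smul_two, h00, h01, h10, h11, sc2_of]

theorem d0_eq {d : Matrix (Fin 2) (Fin 2) (Matrix (Fin 2) (Fin 2) F)}
    (h : (ω - ω ^ 2) • d = !![(1 : F) • 1, (1 : F) • 1; (2 : F) • 1, (-1 : F) • 1]) :
    d = sc2 (d0.map (phi hω)) := by
  have h5 : (5 : F) = 0 := h5F
  refine d_eq hω h ?_ ?_ ?_ ?_
  · rw [show phi hω (d0 0 0) = 3 + 1 * ω from (phi_mk hω 3 1).trans (by push_cast; ring)]
    linear_combination ((-1) + (-1) * ω) * hω + (ω) * h5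
  · rw [show phi hω (d0 0 1) = 3 + 1 * ω from (phi_mk hω 3 1).trans (by push_cast; ring)]
    linear_combination ((-1) + (-1) * ω) * hω + (ω) * h5
  · rw [show phi hω (d0 1 0) = 1 + 2 * ω from (phi_mk hω 1 2).trans (by push_cast; ring)]
    linear_combination (3 + (-2) * ω) * hω + ((-1)) * h5
  · rw [show phi hω (d0 1 1) = 2 + 4 * ω from (phi_mk hω 2 4).trans (by push_cast; ring)]
    linear_combination (6 + (-4) * ω) * hω + ((-1)) * h5

theorem d1_eq {d : Matrix (Fin 2) (Fin 2) (Matrix (Fin 2) (Fin 2) F)}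
    (h : (ω - ω ^ 2) • d = !![(1 : F) • 1, (ω : F) • 1; (2 * ω ^ 2 : F) • 1, (-1 : F) • 1]) :
    d = sc2 (d1.map (phi hω)) := by
  have h5 : (5 : F) = 0 := h5F
  refine d_eq hω h ?_ ?_ ?_ ?_
  · rw [show phi hω (d1 0 0) = 3 + 1 * ω from (phi_mk hω 3 1).trans (by push_cast; ring)]
    linear_combination ((-1) + (-1) * ω) * hω + (ω) * h5
  · rw [show phi hω (d1 0 1) = 4 + 2 * ω from (phi_mk hω 4 2).trans (by push_cast; ring)]
    linear_combination ((-2) * ω) * hω + (ω) * h5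
  · rw [show phi hω (d1 1 0) = 1 + 4 * ω from (phi_mk hω 1 4).trans (by push_cast; ring)]
    linear_combination (5 + (-4) * ω) * hω + ((-1)) * h5
  · rw [show phi hω (d1 1 1) = 2 + 4 * ω from (phi_mk hω 2 4).trans (by push_cast; ring)]
    linear_combination (6 + (-4) * ω) * hω + ((-1)) * h5

theorem d2_eq {d : Matrix (Fin 2) (Fin 2) (Matrix (Fin 2) (Fin 2) F)}
    (h : (ω - ω ^ 2) • d = !![(1 : F) • 1, (ω ^ 2 : F) • 1; (2 * ω : F) • 1, (-1 : F) • 1]) :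
    d = sc2 (d2.map (phi hω)) := by
  have h5 : (5 : F) = 0 := h5F
  refine d_eq hω h ?_ ?_ ?_ ?_
  · rw [show phi hω (d2 0 0) = 3 + 1 * ω from (phi_mk hω 3 1).trans (by push_cast; ring)]
    linear_combination ((-1) + (-1) * ω) * hω + (ω) * h5
  · rw [show phi hω (d2 0 1) = 3 + 2 * ω from (phi_mk hω 3 2).trans (by push_cast; ring)]
    linear_combination ((-2) * ω) * hω + (ω) * h5
  · rw [show phi hω (d2 1 0) = 3 + 4 * ω from (phi_mk hω 3 4).trans (by push_cast; ring)]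
    linear_combination (5 + (-4) * ω) * hω + ((-1)) * h5
  · rw [show phi hω (d2 1 1) = 2 + 4 * ω from (phi_mk hω 2 4).trans (by push_cast; ring)]
    linear_combination (6 + (-4) * ω) * hω + ((-1)) * h5

theorem neg_two (a b d e : F) : -!![a, b; d, e] = !![-a, -b; -d, -e] := by
  ext i j
  fin_cases i <;> fin_cases j <;> rfl

theorem eq_two {a b c d a' b' c' d' : F} (h1 : a = a') (h2 : b = b') (h3 : c = c') (h4 : d = d') :
    !![a, b; c, d] = !![a', b'; c', d'] := by rw [h1, h2, h3, h4]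

open Cfsg.Agent.H930.A7s (Xo Zo No)

theorem blk01 (hω : ω ^ 2 + ω + 1 = 0) : ((-1 : F) • Zo ω) * ((3 * (2 * ω + 1)) • No ω) =
    !![0 + 0 * ω, 4 + 2 * ω; 4 + 1 * ω, 4 + 2 * ω] := by
  have h5 : (5 : F) = 0 := h5F
  unfold Zo No
  rw [smul_two, smul_two, Matrix.mul_fin_two]
  apply eq_two
  · linear_combination (0) * hω + (0) * h5
  · linear_combination (6) * hω + ((-2) + (-1) * ω) * h5
  · linear_combination (6 + (-12) * ω) * hω + ((-2) + ω) * h5
  · linear_combination ((-24) + 12 * ω + 12 * ω ^ 2 + (-24) * ω ^ 3) * hω + (4 + 2 * ω) * h5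

theorem blk10 (hω : ω ^ 2 + ω + 1 = 0) : -((2 : F) • (((3 * (2 * ω + 1)) • No ω) * ((-1 : F) • Zo ω))) =
    !![2 + 1 * ω, 3 + 4 * ω; 3 + 2 * ω, 0 + 0 * ω] := by
  have h5 : (5 : F) = 0 := h5F
  unfold Zo No
  rw [smul_two, smul_two, Matrix.mul_fin_two, smul_two, neg_two]
  apply eq_two
  · linear_combination (48 + (-24) * ω + (-24) * ω ^ 2 + 48 * ω ^ 3) * hω + ((-10) + (-5) * ω) * h5
  · linear_combination (12) * hω + ((-3) + (-2) * ω) * h5
  · linear_combination (12 + (-24) * ω) * hω + ((-3) + 2 * ω) * h5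
  · linear_combination (0) * hω + (0) * h5

theorem blk11 (hω : ω ^ 2 + ω + 1 = 0) : (2 : F) • (((3 * (2 * ω + 1)) • No ω) * Xo * ((3 * (2 * ω + 1)) • No ω)) =
    !![1 + 1 * ω, 4 + 3 * ω; 3 + 0 * ω, 4 + 4 * ω] := by
  have h5 : (5 : F) = 0 := h5F
  unfold No Xo
  rw [smul_two, Matrix.mul_fin_two, Matrix.mul_fin_two, smul_two]
  apply eq_two
  · linear_combination ((-216) + 288 * ω ^ 2) * hω + (43 + 43 * ω) * h5
  · linear_combination ((-72) + 432 * ω + (-432) * ω ^ 2 + 576 * ω ^ 4) * hω + (10 + (-87) * ω) * h5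
  · linear_combination ((-144)) * hω + (21) * h5
  · linear_combination (216 + (-288) * ω ^ 2) * hω + ((-44) + (-44) * ω) * h5

theorem unc_dg {e₀ e₁ e₂ : Matrix (Fin 2) (Fin 2) (Matrix (Fin 2) (Fin 2) F)} (h₀ : e₀ = sc2 (d0.map (phi hω)))
    (h₁ : e₁ = sc2 (d1.map (phi hω))) (h₂ : e₂ = sc2 (d2.map (phi hω))) :
    unc (dg e₀ e₁ e₂) = Vk.map (phi hω) := by
  ext ⟨i, p⟩ ⟨j, q⟩
  rw [unc_apply, Matrix.map_apply]
  change (if i = j then (if i = 0 then e₀ else if i = 1 then e₁ else e₂) else 0) (hi p) (hi q) (lo p) (lo q) =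
    phi hω (if i = j ∧ lo p = lo q then dd i (hi p) (hi q) else 0)
  by_cases h : i = j
  · rw [if_pos h]
    have h3 : (if i = 0 then e₀ else if i = 1 then e₁ else e₂) = sc2 ((dd i).map (phi hω)) := by
      unfold dd
      split_ifs
      · exact h₀
      · exact h₁
      · exact h₂
    rw [h3, sc2_entry]
    by_cases h2 : lo p = lo q
    · rw [if_pos h2, if_pos ⟨h, h2⟩]
      rfl
    · rw [if_neg h2, if_neg (fun h4 => h2 h4.2), map_zero]
  · rw [if_neg h, if_neg (fun h4 => h h4.1), map_zero]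
    rfl

theorem unc_gm {x : Matrix (Fin 2) (Fin 2) (Matrix (Fin 2) (Fin 2) F)}
    (hx : ∀ p q : Fin 4, x (hi p) (hi q) (lo p) (lo q) = phi hω (x4 p q)) :
    unc (gm ω x) = Vg.map (phi hω) := by
  ext ⟨i, p⟩ ⟨j, q⟩
  rw [unc_apply, Matrix.map_apply]
  change (ω ^ (2 * (i : ℕ) * (j : ℕ)) • x) (hi p) (hi q) (lo p) (lo q) =
    phi hω (w ^ (2 * (i : ℕ) * (j : ℕ)) * x4 p q)
  rw [Matrix.smul_apply, Matrix.smul_apply]
  rw [hx, map_mul, map_pow, phi_w, smul_eq_mul]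

/-- the matrix `x` in normal form -/
def xo (ω : F) : Matrix (Fin 2) (Fin 2) (Matrix (Fin 2) (Fin 2) F) :=
  !![Xo, ((-1 : F) • Zo ω) * ((3 * (2 * ω + 1)) • No ω);
    -((2 : F) • (((3 * (2 * ω + 1)) • No ω) * ((-1 : F) • Zo ω))),
    (2 : F) • (((3 * (2 * ω + 1)) • No ω) * Xo * ((3 * (2 * ω + 1)) • No ω))]

theorem Xo_eq : (Xo : Matrix (Fin 2) (Fin 2) F) = !![0 + 0 * ω, 1 + 0 * ω; 2 + 0 * ω, 0 + 0 * ω] := by
  unfold Xo
  apply eq_two <;> ring

theorem xo_entry (p q : Fin 4) : xo ω (hi p) (hi q) (lo p) (lo q) = phi hω (x4 p q) := by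
  unfold xo
  rw [blk01 hω, blk10 hω, blk11 hω, Xo_eq (ω := ω)]
  have key : ∀ a b : ℕ, phi hω ⟨(a : ZMod 5), (b : ZMod 5)⟩ = (a : F) + (b : F) * ω := phi_mk hω
  fin_cases p <;> fin_cases q
  · exact (show (0 + 0 * ω : F) = phi hω (x4 0 0) from ((key 0 0).trans (by push_cast; ring)).symm)
  · exact (show (1 + 0 * ω : F) = phi hω (x4 0 1) from ((key 1 0).trans (by push_cast; ring)).symm)
  · exact (show (0 + 0 * ω : F) = phi hω (x4 0 2) from ((key 0 0).trans (by push_cast; ring)).symm)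
  · exact (show (4 + 2 * ω : F) = phi hω (x4 0 3) from ((key 4 2).trans (by push_cast; ring)).symm)
  · exact (show (2 + 0 * ω : F) = phi hω (x4 1 0) from ((key 2 0).trans (by push_cast; ring)).symm)
  · exact (show (0 + 0 * ω : F) = phi hω (x4 1 1) from ((key 0 0).trans (by push_cast; ring)).symm)
  · exact (show (4 + 1 * ω : F) = phi hω (x4 1 2) from ((key 4 1).trans (by push_cast; ring)).symm)
  · exact (show (4 + 2 * ω : F) = phi hω (x4 1 3) from ((key 4 2).trans (by push_cast; ring)).symm)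
  · exact (show (2 + 1 * ω : F) = phi hω (x4 2 0) from ((key 2 1).trans (by push_cast; ring)).symm)
  · exact (show (3 + 4 * ω : F) = phi hω (x4 2 1) from ((key 3 4).trans (by push_cast; ring)).symm)
  · exact (show (1 + 1 * ω : F) = phi hω (x4 2 2) from ((key 1 1).trans (by push_cast; ring)).symm)
  · exact (show (4 + 3 * ω : F) = phi hω (x4 2 3) from ((key 4 3).trans (by push_cast; ring)).symm)
  · exact (show (3 + 2 * ω : F) = phi hω (x4 3 0) from ((key 3 2).trans (by push_cast; ring)).symm)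
  · exact (show (0 + 0 * ω : F) = phi hω (x4 3 1) from ((key 0 0).trans (by push_cast; ring)).symm)
  · exact (show (3 + 0 * ω : F) = phi hω (x4 3 2) from ((key 3 0).trans (by push_cast; ring)).symm)
  · exact (show (4 + 4 * ω : F) = phi hω (x4 3 3) from ((key 4 4).trans (by push_cast; ring)).symm)

end link

section main

variable {F : Type*} [Field F]

/-- conjugation -/
noncomputable def cjE (S : GL (Fin 2) F) : Matrix (Fin 2) (Fin 2) F ≃ₐ[F] Matrix (Fin 2) (Fin 2) F :=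
  AlgEquiv.ofAlgHom (Cfsg.Agent.H930.A7s.cj S) (Cfsg.Agent.H930.A7s.cj S⁻¹) (by
    ext1 A
    change ((S⁻¹ : GL (Fin 2) F) : Matrix (Fin 2) (Fin 2) F) * ((((S⁻¹)⁻¹ : GL (Fin 2) F) : Matrix (Fin 2) (Fin 2) F) * A *
      ((S⁻¹ : GL (Fin 2) F) : Matrix (Fin 2) (Fin 2) F)) * (S : Matrix (Fin 2) (Fin 2) F) = A
    rw [inv_inv]
    calc _ = (((S⁻¹ : GL (Fin 2) F) : Matrix (Fin 2) (Fin 2) F) * (S : Matrix (Fin 2) (Fin 2) F)) * A *
          (((S⁻¹ : GL (Fin 2) F) : Matrix (Fin 2) (Fin 2) F) * (S : Matrix (Fin 2) (Fin 2) F)) := by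
            simp only [Matrix.mul_assoc]
      _ = A := by rw [← Units.val_mul, inv_mul_cancel, Units.val_one, Matrix.one_mul, Matrix.mul_one]) (by
    ext1 A
    change (((S⁻¹)⁻¹ : GL (Fin 2) F) : Matrix (Fin 2) (Fin 2) F) * (((S⁻¹ : GL (Fin 2) F) : Matrix (Fin 2) (Fin 2) F) * A *
      (S : Matrix (Fin 2) (Fin 2) F)) * ((S⁻¹ : GL (Fin 2) F) : Matrix (Fin 2) (Fin 2) F) = A
    rw [inv_inv]
    calc _ = ((S : Matrix (Fin 2) (Fin 2) F) * ((S⁻¹ : GL (Fin 2) F) : Matrix (Fin 2) (Fin 2) F)) * A *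
          ((S : Matrix (Fin 2) (Fin 2) F) * ((S⁻¹ : GL (Fin 2) F) : Matrix (Fin 2) (Fin 2) F)) := by
            simp only [Matrix.mul_assoc]
      _ = A := by rw [← Units.val_mul, mul_inv_cancel, Units.val_one, Matrix.one_mul, Matrix.mul_one])

theorem cjE_of {S : GL (Fin 2) F} {X Y : Matrix (Fin 2) (Fin 2) F}
    (h : X * (S : Matrix (Fin 2) (Fin 2) F) = (S : Matrix (Fin 2) (Fin 2) F) * Y) : cjE S X = Y := by
  change ((S⁻¹ : GL (Fin 2) F) : Matrix (Fin 2) (Fin 2) F) * X * (S : Matrix (Fin 2) (Fin 2) F) = Y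
  rw [Matrix.mul_assoc, h, ← Matrix.mul_assoc, ← Units.val_mul, inv_mul_cancel, Units.val_one, Matrix.one_mul]

theorem map_a3 {R R' : Type*} [Ring R] [Ring R'] [Algebra F R] [Algebra F R'] (f : R ≃ₐ[F] R') (ω : F) :
    f.mapMatrix (a3 ω : Matrix (Fin 3) (Fin 3) R) = a3 ω := by
  ext i j
  rw [AlgEquiv.mapMatrix_apply, Matrix.map_apply, a3_apply, a3_apply]
  split_ifs
  · rw [map_smul, map_one]
  · exact map_zero f

theorem map_b3 {R R' : Type*} [Ring R] [Ring R'] [Algebra F R] [Algebra F R'] (f : R ≃ₐ[F] R') :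
    f.mapMatrix (b3 : Matrix (Fin 3) (Fin 3) R) = b3 := by
  ext i j
  rw [AlgEquiv.mapMatrix_apply, Matrix.map_apply, b3_apply, b3_apply]
  split_ifs
  · exact map_one f
  · exact map_zero f

theorem map_dg {R R' : Type*} [Ring R] [Ring R'] [Algebra F R] [Algebra F R'] (f : R ≃ₐ[F] R') (x y z : R) :
    f.mapMatrix (dg x y z) = dg (f x) (f y) (f z) := by
  ext i j
  rw [AlgEquiv.mapMatrix_apply, Matrix.map_apply]
  change f (if i = j then (if i = 0 then x else if i = 1 then y else z) else 0) =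
    (if i = j then (if i = 0 then f x else if i = 1 then f y else f z) else 0)
  split_ifs
  · rfl
  · rfl
  · rfl
  · exact map_zero f

theorem map_gm {R R' : Type*} [Ring R] [Ring R'] [Algebra F R] [Algebra F R'] (f : R ≃ₐ[F] R') (ω : F) (x : R) :
    f.mapMatrix (gm ω x) = gm ω (f x) := by
  ext i j
  rw [AlgEquiv.mapMatrix_apply, Matrix.map_apply]
  change f (ω ^ (2 * (i : ℕ) * (j : ℕ)) • x) = ω ^ (2 * (i : ℕ) * (j : ℕ)) • f x
  rw [map_smul]

theorem map_two (f : Matrix (Fin 2) (Fin 2) F ≃ₐ[F] Matrix (Fin 2) (Fin 2) F) (a b c d : Matrix (Fin 2) (Fin 2) F) :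
    f.mapMatrix !![a, b; c, d] = !![f a, f b; f c, f d] := by
  ext1 i j
  fin_cases i <;> fin_cases j <;> rfl

variable [CharP F 5] {ω : F} (hω : ω ^ 2 + ω + 1 = 0) {ι : Type*} [Fintype ι] [DecidableEq ι]

theorem map_d {S : GL (Fin 2) F} {c : F} {d : Matrix (Fin 2) (Fin 2) (Matrix (Fin 2) (Fin 2) F)} {x y z t : F}
    (h : c • d = !![x • 1, y • 1; z • 1, t • 1]) :
    c • (cjE S).mapMatrix d = !![x • 1, y • 1; z • 1, t • 1] := by
  rw [← map_smul, h, map_two, map_smul, map_smul, map_smul, map_smul, map_one]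

/-- **the tensor form** -/
theorem exists_tensor {a b k g : Matrix ι ι F}
    (ψ : Matrix ι ι F ≃ₐ[F] Matrix (Fin 3) (Fin 3) (Matrix (Fin 2) (Fin 2) (Matrix (Fin 2) (Fin 2) F)))
    {d₀ d₁ d₂ x : Matrix (Fin 2) (Fin 2) (Matrix (Fin 2) (Fin 2) F)} {X Z N : Matrix (Fin 2) (Fin 2) F}
    (ha : ψ a = a3 ω) (hb : ψ b = b3) (hk : ψ k = dg d₀ d₁ d₂) (hg : ψ g = gm ω x)
    (h₀ : (ω - ω ^ 2) • d₀ = !![(1 : F) • 1, (1 : F) • 1; (2 : F) • 1, (-1 : F) • 1])
    (h₁ : (ω - ω ^ 2) • d₁ = !![(1 : F) • 1, (ω : F) • 1; (2 * ω ^ 2 : F) • 1, (-1 : F) • 1])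
    (h₂ : (ω - ω ^ 2) • d₂ = !![(1 : F) • 1, (ω ^ 2 : F) • 1; (2 * ω : F) • 1, (-1 : F) • 1])
    (hx : x = !![X, Z * N; -((2 : F) • (N * Z)), (2 : F) • (N * X * N)]) {S : GL (Fin 2) F} {ε : F}
    (hX : X * (S : Matrix (Fin 2) (Fin 2) F) = (S : Matrix (Fin 2) (Fin 2) F) * (ε • Cfsg.Agent.H930.A7s.Xo))
    (hZ : Z * (S : Matrix (Fin 2) (Fin 2) F) = (S : Matrix (Fin 2) (Fin 2) F) * ((-ε) • Cfsg.Agent.H930.A7s.Zo ω))
    (hN : N * (S : Matrix (Fin 2) (Fin 2) F) =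
      (S : Matrix (Fin 2) (Fin 2) F) * ((3 * (2 * ω + 1)) • Cfsg.Agent.H930.A7s.No ω)) :
    ∃ (e : Fin 3 × Fin 4 ≃ ι) (u : GL ι F),
      a = (u : Matrix ι ι F) * kr e (Aa.map (phi hω)) (Ba.map (phi hω)) * ((u⁻¹ : GL ι F) : Matrix ι ι F) ∧
      b = (u : Matrix ι ι F) * kr e (Ab.map (phi hω)) (Bb.map (phi hω)) * ((u⁻¹ : GL ι F) : Matrix ι ι F) ∧
      k = (u : Matrix ι ι F) * kr e (Ak.map (phi hω)) (Bk.map (phi hω)) * ((u⁻¹ : GL ι F) : Matrix ι ι F) ∧
      g = ε • ((u : Matrix ι ι F) * kr e (Ag.map (phi hω)) (Bg.map (phi hω)) * ((u⁻¹ : GL ι F) : Matrix ι ι F)) := by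
  have cX := cjE_of hX
  have cZ := cjE_of hZ
  have cN := cjE_of hN
  have hfx : (cjE S).mapMatrix x = ε • xo ω := by
    rw [hx, map_two, map_neg, map_smul, map_smul, map_mul, map_mul, map_mul, map_mul, cX, cZ, cN]
    unfold xo
    ext1 i j
    fin_cases i <;> fin_cases j
    · rfl
    · change ((-ε) • Cfsg.Agent.H930.A7s.Zo ω) * (_ : Matrix (Fin 2) (Fin 2) F) =
        ε • (((-1 : F) • Cfsg.Agent.H930.A7s.Zo ω) * (_ : Matrix (Fin 2) (Fin 2) F))
      rw [smul_mul_assoc, smul_mul_assoc, smul_smul]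
      congr 1
      ring
    · change -((2 : F) • ((_ : Matrix (Fin 2) (Fin 2) F) * ((-ε) • Cfsg.Agent.H930.A7s.Zo ω))) =
        ε • -((2 : F) • ((_ : Matrix (Fin 2) (Fin 2) F) * ((-1 : F) • Cfsg.Agent.H930.A7s.Zo ω)))
      rw [mul_smul_comm, mul_smul_comm, smul_smul, smul_smul, smul_neg, smul_smul]
      congr 2
      ring
    · change (2 : F) • (((_ : Matrix (Fin 2) (Fin 2) F) * (ε • Cfsg.Agent.H930.A7s.Xo)) * (_ : Matrix (Fin 2) (Fin 2) F)) =
        ε • ((2 : F) • (((_ : Matrix (Fin 2) (Fin 2) F) * Cfsg.Agent.H930.A7s.Xo) * (_ : Matrix (Fin 2) (Fin 2) F)))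
      simp only [mul_smul_comm, smul_mul_assoc, smul_smul]
      congr 1
      ring
  let Ψ : Matrix ι ι F ≃ₐ[F] Matrix N12 N12 F := ψ.trans ((cjE S).mapMatrix.mapMatrix.trans unc)
  have Ψa : Ψ a = Va.map (phi hω) := by
    change unc ((cjE S).mapMatrix.mapMatrix (ψ a)) = _
    rw [ha, map_a3, unc_a3 hω]
  have Ψb : Ψ b = Vb.map (phi hω) := by
    change unc ((cjE S).mapMatrix.mapMatrix (ψ b)) = _
    rw [hb, map_b3, unc_b3 hω]
  have Ψk : Ψ k = Vk.map (phi hω) := by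
    change unc ((cjE S).mapMatrix.mapMatrix (ψ k)) = _
    rw [hk, map_dg]
    exact unc_dg hω (d0_eq hω (map_d h₀)) (d1_eq hω (map_d h₁)) (d2_eq hω (map_d h₂))
  have Ψg : Ψ g = ε • Vg.map (phi hω) := by
    change unc ((cjE S).mapMatrix.mapMatrix (ψ g)) = _
    rw [hg, map_gm, hfx, ← unc_gm hω (xo_entry hω), ← map_smul]
    congr 1
    ext1 i j
    change ω ^ (2 * (i : ℕ) * (j : ℕ)) • ε • xo ω = ε • ω ^ (2 * (i : ℕ) * (j : ℕ)) • xo ω
    rw [smul_comm]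
  obtain ⟨e, u, hu⟩ := exists_conj_alg Ψ
  let GE : GL ι F := ⟨Matrix.reindex e e (GF hω : Matrix N12 N12 F), Matrix.reindex e e ((GF hω)⁻¹ : GL N12 F), by
    rw [Matrix.reindex_apply, Matrix.reindex_apply, Matrix.submatrix_mul_equiv, ← Units.val_mul, mul_inv_cancel]
    exact Matrix.submatrix_one_equiv _, by
    rw [Matrix.reindex_apply, Matrix.reindex_apply, Matrix.submatrix_mul_equiv, ← Units.val_mul, inv_mul_cancel]
    exact Matrix.submatrix_one_equiv _⟩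
  have key : ∀ {V : Matrix N12 N12 Ra} {A : Matrix (Fin 3) (Fin 3) Ra} {B : Matrix (Fin 4) (Fin 4) Ra},
      V * G = G * (A ⊗ₖ B) → (u : Matrix ι ι F) * Matrix.reindex e e (V.map (phi hω)) * ((u⁻¹ : GL ι F) : Matrix ι ι F) =
        ((u * GE : GL ι F) : Matrix ι ι F) * kr e (A.map (phi hω)) (B.map (phi hω)) *
          (((u * GE)⁻¹ : GL ι F) : Matrix ι ι F) := by
    intro V A B h
    have h1 : Matrix.reindex e e (V.map (phi hω)) = (GE : Matrix ι ι F) * kr e (A.map (phi hω)) (B.map (phi hω)) *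
        ((GE⁻¹ : GL ι F) : Matrix ι ι F) := by
      rw [fact hω h]
      change _ = Matrix.reindex e e _ * Matrix.reindex e e _ * Matrix.reindex e e _
      rw [Matrix.reindex_apply, Matrix.reindex_apply, Matrix.reindex_apply, Matrix.reindex_apply,
        Matrix.submatrix_mul_equiv, Matrix.submatrix_mul_equiv]
    rw [h1, _root_.mul_inv_rev, Units.val_mul, Units.val_mul]
    simp only [Matrix.mul_assoc]
  refine ⟨e, u * GE, ?_, ?_, ?_, ?_⟩
  · rw [← key ea, ← Ψa]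
    exact hu a
  · rw [← key eb, ← Ψb]
    exact hu b
  · rw [← key ek, ← Ψk]
    exact hu k
  · rw [← key eg]
    have h1 := hu g
    rw [Ψg] at h1
    have h2 : Matrix.reindex e e (ε • Vg.map (phi hω)) = ε • Matrix.reindex e e (Vg.map (phi hω)) := rfl
    rw [h2, mul_smul_comm, smul_mul_assoc] at h1
    exact h1

end main

end Cfsg.Agent.H108.TK.Five
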