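import Cfsg.Agent.H108.TK.Basic
import Cfsg.Agent.H108.Nine.Un

/-!
Tensor kill: a maximal subgroup of `SL_n(F)` or `SU_n(q)` all of whose elements have the form `g (a ⊗ b) g⁻¹` is not in
the residual class.
-/

set_option autoImplicit false
set_option linter.unusedSectionVars false

namespace Cfsg.Agent.H108.TK

open Matrix Cfsg Cfsg.Geo
open Cfsg.Agent.LieClassical.HermBasic
open Cfsg.Agent.H108.Nine (sg un_iff herm_mulVec herm_eq map_map_sg exists_norm_one_ne)

section general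

variable {F : Type*} [Field F] {ι κ ν : Type} [Fintype ι] [Fintype κ] [Fintype ν] [DecidableEq ι] [DecidableEq κ]
  [DecidableEq ν] (e : ι × κ ≃ ν)

/-- `a ↦ g (a ⊗ 1) g⁻¹` -/
def leftHom (g : GL ν F) : GL ι F →* GL ν F where
  toFun a := g * krGL e a 1 * g⁻¹
  map_one' := by rw [krGL_one]; group
  map_mul' a b := by
    have : krGL e (a * b) (1 : GL κ F) = krGL e a 1 * krGL e b 1 := by rw [← krGL_mul, one_mul]
    rw [this]; group

theorem leftHom_apply (g : GL ν F) (a : GL ι F) : leftHom e g a = g * krGL e a 1 * g⁻¹ := rfl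

theorem eq_smul_one_of_kr [Nonempty ι] {y : Matrix ι ι F} {z : Matrix κ κ F} {c : F}
    (hc : c ≠ 0) [Nonempty κ] (h : kr e y z = c • 1) : (∃ d : F, y = d • 1) ∧ ∃ d : F, z = d • 1 := by
  have h1 : kr e (c • (1 : Matrix ι ι F)) (1 : Matrix κ κ F) = kr e y z := by
    rw [h, kr_smul_left, kr_one]
  obtain ⟨d, hd, h2, h3⟩ := kr_eq e (smul_ne_zero hc one_ne_zero) one_ne_zero h1
  exact ⟨⟨d * c, by rw [h2, smul_smul]⟩, ⟨d⁻¹, h3⟩⟩

/-- a simple quotient: a subgroup normalised by `P` meets `P` in scalars or covers `P` modulo scalars -/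
theorem le_or_cover {H P X : Subgroup (GL ν F)} (hc : IsResidualCore H P)
    (hX : ∀ p ∈ P, ∀ x ∈ X, p * x * p⁻¹ ∈ X) :
    (∀ x ∈ P, x ∈ X → x ∈ scalars ν F) ∨ (∀ x ∈ P, ∃ n ∈ X, ∃ s ∈ scalars ν F, x = n * s) := by
  let Z : Subgroup P := (scalars ν F).subgroupOf P
  let N : Subgroup P := X.subgroupOf P
  have hN : N.Normal := ⟨fun n hn g => by
    change (g : GL ν F) * (n : GL ν F) * (g : GL ν F)⁻¹ ∈ X
    exact hX _ g.2 _ hn⟩
  have hs := hc.simple
  have hM : (N.map (QuotientGroup.mk' Z)).Normal := hN.map _ (QuotientGroup.mk'_surjective Z)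
  rcases hM.eq_bot_or_eq_top with h | h
  · left
    intro x hx hxX
    have h1 : QuotientGroup.mk' Z ⟨x, hx⟩ ∈ N.map (QuotientGroup.mk' Z) := ⟨⟨x, hx⟩, hxX, rfl⟩
    rw [h, Subgroup.mem_bot] at h1
    exact (QuotientGroup.eq_one_iff (N := Z) (⟨x, hx⟩ : P)).1 h1
  · right
    intro x hx
    have h1 : QuotientGroup.mk' Z ⟨x, hx⟩ ∈ N.map (QuotientGroup.mk' Z) := by rw [h]; trivial
    obtain ⟨n, hn, hn'⟩ := h1
    have h2 : n⁻¹ * (⟨x, hx⟩ : P) ∈ Z := QuotientGroup.eq.1 hn'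
    refine ⟨n, hn, (n : GL ν F)⁻¹ * x, h2, by group⟩

/-- The common contradiction. -/
theorem contra [Nontrivial κ] [Nonempty ι] {H P : Subgroup (GL ν F)} (hc : IsResidualCore H P) (g : GL ν F)
    (ht : ∀ h ∈ H, ∃ (a : GL ι F) (b : GL κ F), h = g * krGL e a b * g⁻¹) (y : GL ι F)
    (hy : ∀ d : F, (y : Matrix ι ι F) ≠ d • 1) (hyH : g * krGL e y 1 * g⁻¹ ∈ H) : False := by
  have hnormX : ∀ h ∈ H, ∀ x ∈ (leftHom e g (ι := ι)).range, h * x * h⁻¹ ∈ (leftHom e g (ι := ι)).range := by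
    rintro h hh _ ⟨a', rfl⟩
    obtain ⟨a, b, rfl⟩ := ht h hh
    refine ⟨a * a' * a⁻¹, ?_⟩
    rw [leftHom_apply, leftHom_apply]
    have e1 : krGL e (a * a' * a⁻¹) (1 : GL κ F) = krGL e a b * krGL e a' 1 * (krGL e a b)⁻¹ := by
      rw [krGL_inv, ← krGL_mul, ← krGL_mul, mul_one, mul_inv_cancel]
    rw [e1]
    group
  rcases le_or_cover hc (X := (leftHom e g (ι := ι)).range) (fun p hp => hnormX p (hc.le hp)) with h | h
  · -- `y ⊗ 1` centralises `P` modulo scalars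
    have h1 : g * krGL e y 1 * g⁻¹ ∈ scalars ν F := by
      apply hc.centralizer_scalar _ hyH
      intro x hx
      apply h
      · exact P.mul_mem (hc.normal _ hyH x hx) (P.inv_mem hx)
      · have h2 : (g * krGL e y 1 * g⁻¹) ∈ (leftHom e g (ι := ι)).range := ⟨y, rfl⟩
        have h3 := hnormX x (hc.le hx) _ (Subgroup.inv_mem _ h2)
        have h4 : g * krGL e y 1 * g⁻¹ * x * (g * krGL e y 1 * g⁻¹)⁻¹ * x⁻¹ =
            (g * krGL e y 1 * g⁻¹) * (x * (g * krGL e y 1 * g⁻¹)⁻¹ * x⁻¹) := by group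
        rw [h4]
        exact Subgroup.mul_mem _ h2 h3
    have h2 : krGL e y (1 : GL κ F) ∈ scalars ν F := by
      have := (scalars_normal (ι := ν) (F := F)).conj_mem _ h1 g⁻¹
      have e1 : g⁻¹ * (g * krGL e y 1 * g⁻¹) * g⁻¹⁻¹ = krGL e y 1 := by group
      rwa [e1] at this
    obtain ⟨c, hc'⟩ := (mem_scalars_iff _).1 h2
    obtain ⟨⟨d, hd⟩, -⟩ := eq_smul_one_of_kr e (z := (1 : Matrix κ κ F)) c.ne_zero hc'
    exact hy d hd
  · -- `P` is contained in `(GL ⊗ 1)` times scalars: not absolutely irreducible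
    obtain ⟨j0, j1, hj⟩ := exists_pair_ne κ
    have hcomm : ∀ x ∈ P, ((g : Matrix ν ν F) * kr e 1 (Matrix.single j0 j1 1) * ((g⁻¹ : GL ν F) : Matrix ν ν F)) *
        (x : Matrix ν ν F) = (x : Matrix ν ν F) *
        ((g : Matrix ν ν F) * kr e 1 (Matrix.single j0 j1 1) * ((g⁻¹ : GL ν F) : Matrix ν ν F)) := by
      intro x hx
      obtain ⟨_, ⟨a, rfl⟩, s, hs, rfl⟩ := h x hx
      obtain ⟨c, hc'⟩ := (mem_scalars_iff _).1 hs
      have hgg : ((g⁻¹ : GL ν F) : Matrix ν ν F) * (g : Matrix ν ν F) = 1 := by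
        rw [← Units.val_mul, inv_mul_cancel, Units.val_one]
      rw [leftHom_apply, Units.val_mul, hc', Matrix.mul_smul, Matrix.mul_one, Matrix.mul_smul, Matrix.smul_mul]
      congr 1
      rw [Units.val_mul, Units.val_mul, coe_krGL]
      have e1 : kr e 1 (Matrix.single j0 j1 1) * kr e (a : Matrix ι ι F) ((1 : GL κ F) : Matrix κ κ F) =
          kr e (a : Matrix ι ι F) ((1 : GL κ F) : Matrix κ κ F) * kr e 1 (Matrix.single j0 j1 1) := by
        rw [← kr_mul, ← kr_mul, Units.val_one, Matrix.one_mul, Matrix.mul_one, Matrix.one_mul, Matrix.mul_one]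
      calc (g : Matrix ν ν F) * kr e 1 (Matrix.single j0 j1 1) * ((g⁻¹ : GL ν F) : Matrix ν ν F) *
            ((g : Matrix ν ν F) * kr e (a : Matrix ι ι F) ((1 : GL κ F) : Matrix κ κ F) *
              ((g⁻¹ : GL ν F) : Matrix ν ν F))
          = (g : Matrix ν ν F) * (kr e 1 (Matrix.single j0 j1 1) *
            ((((g⁻¹ : GL ν F) : Matrix ν ν F) * (g : Matrix ν ν F)) *
              kr e (a : Matrix ι ι F) ((1 : GL κ F) : Matrix κ κ F))) * ((g⁻¹ : GL ν F) : Matrix ν ν F) := by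
            simp only [Matrix.mul_assoc]
        _ = (g : Matrix ν ν F) * (kr e (a : Matrix ι ι F) ((1 : GL κ F) : Matrix κ κ F) *
            ((((g⁻¹ : GL ν F) : Matrix ν ν F) * (g : Matrix ν ν F)) * kr e 1 (Matrix.single j0 j1 1))) *
              ((g⁻¹ : GL ν F) : Matrix ν ν F) := by
            rw [hgg, Matrix.one_mul, Matrix.one_mul, e1]
        _ = _ := by simp only [Matrix.mul_assoc]
    obtain ⟨c, hc'⟩ := hc.absIrred.2 _ (by
      rintro _ ⟨x, hx, rfl⟩
      exact hcomm x hx)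
    have hgg : ((g⁻¹ : GL ν F) : Matrix ν ν F) * (g : Matrix ν ν F) = 1 := by
      rw [← Units.val_mul, inv_mul_cancel, Units.val_one]
    have h1 : kr e (1 : Matrix ι ι F) (Matrix.single j0 j1 1) = c • 1 := by
      calc kr e (1 : Matrix ι ι F) (Matrix.single j0 j1 1)
          = (((g⁻¹ : GL ν F) : Matrix ν ν F) * (g : Matrix ν ν F)) * kr e 1 (Matrix.single j0 j1 1) *
            (((g⁻¹ : GL ν F) : Matrix ν ν F) * (g : Matrix ν ν F)) := by rw [hgg, Matrix.one_mul, Matrix.mul_one]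
        _ = ((g⁻¹ : GL ν F) : Matrix ν ν F) * ((g : Matrix ν ν F) * kr e 1 (Matrix.single j0 j1 1) *
            ((g⁻¹ : GL ν F) : Matrix ν ν F)) * (g : Matrix ν ν F) := by simp only [Matrix.mul_assoc]
        _ = _ := by rw [hc', Matrix.mul_smul, Matrix.mul_one, Matrix.smul_mul, hgg]
    obtain ⟨i⟩ := (inferInstance : Nonempty ι)
    have h2 := congrFun (congrFun h1 (e (i, j0))) (e (i, j1))
    have hne : e (i, j0) ≠ e (i, j1) := fun h3 => hj (Prod.ext_iff.1 (e.injective h3)).2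
    rw [kr_ix, Matrix.smul_apply, Matrix.one_apply_eq, Matrix.one_apply_ne hne, Matrix.single_apply_same, smul_zero,
      mul_one] at h2
    exact one_ne_zero h2

/-- a matrix of determinant one which does not preserve the decomposable tensors -/
theorem exists_bad [Nontrivial ι] [Nontrivial κ] : ∃ x : GL ν F, (x : Matrix ν ν F).det = 1 ∧
    ¬ (∀ w, Dec e w → Dec e ((x : Matrix ν ν F) *ᵥ w)) := by
  obtain ⟨i0, i1, hi⟩ := exists_pair_ne ι
  obtain ⟨j0, j1, hj⟩ := exists_pair_ne κ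
  have hne : e (i0, j0) ≠ e (i1, j1) := fun h => hi (Prod.ext_iff.1 (e.injective h)).1
  have hdet : (Matrix.transvection (e (i0, j0)) (e (i1, j1)) (1 : F)).det = 1 := Matrix.det_transvection_of_ne _ _ hne _
  refine ⟨Matrix.GeneralLinearGroup.mkOfDetNeZero (Matrix.transvection (e (i0, j0)) (e (i1, j1)) 1) (by
    rw [hdet]; exact one_ne_zero), hdet, fun h => ?_⟩
  obtain ⟨u, v, huv⟩ := h (ten e (Pi.single i1 1) (Pi.single j1 1)) ⟨_, _, rfl⟩
  have e1 : ∀ i j, (Matrix.transvection (e (i0, j0)) (e (i1, j1)) (1 : F) *ᵥ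
      ten e (Pi.single i1 1) (Pi.single j1 1)) (e (i, j)) =
      (Pi.single i1 (1 : F) : ι → F) i * (Pi.single j1 (1 : F) : κ → F) j +
        (if (i, j) = (i0, j0) then 1 else 0) := by
    intro i j
    rw [Matrix.transvection, Matrix.add_mulVec, Matrix.one_mulVec, Pi.add_apply, ten_ix]
    congr 1
    by_cases h1 : (i, j) = (i0, j0)
    · rw [if_pos h1, h1, Matrix.single_mulVec, Function.update_self, ten_ix, Pi.single_eq_same, Pi.single_eq_same,
        mul_one, mul_one]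
    · rw [if_neg h1, Matrix.single_mulVec, Function.update_of_ne (fun h2 => h1 (e.injective h2)), Pi.zero_apply]
  have e2 : ∀ i j, (Pi.single i1 (1 : F) : ι → F) i * (Pi.single j1 (1 : F) : κ → F) j +
        (if (i, j) = (i0, j0) then 1 else 0) = u i * v j := by
    intro i j
    rw [← e1, ← ten_ix e]
    exact congrFun huv _
  have h00 := e2 i0 j0
  have h01 := e2 i0 j1
  have h11 := e2 i1 j1
  rw [Pi.single_eq_of_ne hi, Pi.single_eq_of_ne hj, if_pos rfl, zero_mul, zero_add] at h00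
  rw [Pi.single_eq_of_ne hi, if_neg (fun h => hj (Prod.ext_iff.1 h).2.symm), zero_mul, zero_add] at h01
  rw [Pi.single_eq_same, Pi.single_eq_same, if_neg (fun h => hi (Prod.ext_iff.1 h).1.symm), one_mul, add_zero] at h11
  rcases mul_eq_zero.1 h01.symm with h | h
  · rw [h, zero_mul] at h00
    exact one_ne_zero h00
  · rw [h, mul_zero] at h11
    exact one_ne_zero h11

theorem det_conj_mem (g x : GL ν F) (hx : (x : Matrix ν ν F).det = 1) : g * x * g⁻¹ ∈ specialLinear ν F := by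
  have hm' : x ∈ specialLinear ν F := by
    apply MonoidHom.mem_ker.2
    apply Units.ext
    rw [Matrix.GeneralLinearGroup.val_det_apply, hx, Units.val_one]
  have : (specialLinear ν F).Normal := MonoidHom.normal_ker _
  exact this.conj_mem x hm' g

/-- **Tensor kill, linear case.** -/
theorem kill_SL [Nontrivial ι] [Nontrivial κ] {H P : Subgroup (GL ν F)} (hc : IsResidualCore H P)
    (hH : IsMaximalIn (specialLinear ν F) H) (g : GL ν F)
    (ht : ∀ h ∈ H, ∃ (a : GL ι F) (b : GL κ F), h = g * krGL e a b * g⁻¹) : False := by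
  have hle : H ≤ stabD (Dec e) g ⊓ specialLinear ν F := by
    refine le_inf ?_ hH.1.le
    intro h hh
    obtain ⟨a, b, rfl⟩ := ht h hh
    exact conj_krGL_mem e g a b
  rcases hH.2 _ hle inf_le_right with hM | hM
  · obtain ⟨i0, i1, hi⟩ := exists_pair_ne ι
    have hdet : (Matrix.transvection i0 i1 (1 : F)).det = 1 := Matrix.det_transvection_of_ne _ _ hi _
    let y : GL ι F := Matrix.GeneralLinearGroup.mkOfDetNeZero (Matrix.transvection i0 i1 1) (by
      rw [hdet]; exact one_ne_zero)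
    refine contra e hc g ht y ?_ ?_
    · intro d hd
      have h1 := congrFun (congrFun (show Matrix.transvection i0 i1 (1 : F) = d • 1 from hd) i0) i1
      rw [Matrix.transvection, Matrix.add_apply, Matrix.one_apply_ne hi, Matrix.single_apply_same, Matrix.smul_apply,
        Matrix.one_apply_ne hi, smul_zero, zero_add] at h1
      exact one_ne_zero h1
    · rw [← hM]
      refine ⟨conj_krGL_mem e g y 1, det_conj_mem g _ ?_⟩
      rw [coe_krGL, det_kr, Units.val_one, Matrix.det_one, one_pow, mul_one]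
      have : (y : Matrix ι ι F).det = 1 := hdet
      rw [this, one_pow]
  · obtain ⟨x, hx, hx'⟩ := exists_bad (F := F) e
    apply hx'
    have h1 : g * x * g⁻¹ ∈ stabD (Dec e) g ⊓ specialLinear ν F := by
      rw [hM]
      exact det_conj_mem g x hx
    intro w hw
    have h2 := (mem_stabD.1 h1.1 w).1 hw
    have e1 : g⁻¹ * (g * x * g⁻¹) * g = x := by group
    rwa [e1] at h2

end general

section unitary

variable {F : Type*} [Field F] [Fintype F] {q n : ℕ}

theorem mem_GU_of_un (hF : Fintype.card F = q ^ 2) {x : GL (Fin n) F}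
    (hx : (x : Matrix (Fin n) (Fin n) F)ᵀ * (x : Matrix (Fin n) (Fin n) F).map (sg hF) = 1) : x ∈ GU n F q :=
  (un_iff hF _).2 hx

theorem un_of_mem_GU (hF : Fintype.card F = q ^ 2) {x : GL (Fin n) F} (hx : x ∈ GU n F q) :
    (x : Matrix (Fin n) (Fin n) F)ᵀ * (x : Matrix (Fin n) (Fin n) F).map (sg hF) = 1 :=
  (un_iff hF _).1 hx

/-- conjugation by a similitude preserves the unitary group -/
theorem conj_mem_GU (hF : Fintype.card F = q ^ 2) {g x : GL (Fin n) F} {κ : F}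
    (hg : (g : Matrix (Fin n) (Fin n) F)ᵀ * (g : Matrix (Fin n) (Fin n) F).map (sg hF) = κ • 1)
    (hx : x ∈ GU n F q) : g * x * g⁻¹ ∈ GU n F q := by
  have hherm : ∀ u v, hermForm n F q ((g : Matrix (Fin n) (Fin n) F) *ᵥ u) ((g : Matrix (Fin n) (Fin n) F) *ᵥ v) =
      κ * hermForm n F q u v := by
    intro u v
    rw [herm_mulVec hF, hg, Matrix.smul_mulVec, Matrix.one_mulVec, dotProduct_smul, smul_eq_mul, herm_eq hF]
  have hginv : ∀ u, (g : Matrix (Fin n) (Fin n) F) *ᵥ (((g⁻¹ : GL (Fin n) F) : Matrix (Fin n) (Fin n) F) *ᵥ u) = u := by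
    intro u
    rw [Matrix.mulVec_mulVec, ← Units.val_mul, mul_inv_cancel, Units.val_one, Matrix.one_mulVec]
  intro u v
  change hermForm n F q (((g * x * g⁻¹ : GL (Fin n) F) : Matrix (Fin n) (Fin n) F) *ᵥ u)
    (((g * x * g⁻¹ : GL (Fin n) F) : Matrix (Fin n) (Fin n) F) *ᵥ v) = hermForm n F q u v
  rw [Units.val_mul, Units.val_mul, ← Matrix.mulVec_mulVec, ← Matrix.mulVec_mulVec, ← Matrix.mulVec_mulVec,
    ← Matrix.mulVec_mulVec, hherm]
  have h1 : hermForm n F q ((x : Matrix (Fin n) (Fin n) F) *ᵥ (((g⁻¹ : GL (Fin n) F) : Matrix (Fin n) (Fin n) F) *ᵥ u))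
      ((x : Matrix (Fin n) (Fin n) F) *ᵥ (((g⁻¹ : GL (Fin n) F) : Matrix (Fin n) (Fin n) F) *ᵥ v)) =
      hermForm n F q (((g⁻¹ : GL (Fin n) F) : Matrix (Fin n) (Fin n) F) *ᵥ u)
        (((g⁻¹ : GL (Fin n) F) : Matrix (Fin n) (Fin n) F) *ᵥ v) := hx _ _
  rw [h1, ← hherm, hginv, hginv]

/-- If `P` and `g⁻¹ P g` are unitary and `P` is absolutely irreducible then `g` is a similitude. -/
theorem exists_similitude (hF : Fintype.card F = q ^ 2) {P : Subgroup (GL (Fin n) F)}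
    (hPirr : ActsAbsolutelyIrreducibly (matrixSet P)) (hP : ∀ x ∈ P, x ∈ GU n F q) (g : GL (Fin n) F)
    (hg : ∀ x ∈ P, g⁻¹ * x * g ∈ GU n F q) :
    ∃ κ : F, (g : Matrix (Fin n) (Fin n) F)ᵀ * (g : Matrix (Fin n) (Fin n) F).map (sg hF) = κ • 1 := by
  set G : Matrix (Fin n) (Fin n) F := (g : Matrix (Fin n) (Fin n) F) with hG
  set G' : Matrix (Fin n) (Fin n) F := ((g⁻¹ : GL (Fin n) F) : Matrix (Fin n) (Fin n) F) with hG'
  have hGG : G * G' = 1 := by rw [hG, hG', ← Units.val_mul, mul_inv_cancel, Units.val_one]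
  have hGG' : G' * G = 1 := by rw [hG, hG', ← Units.val_mul, inv_mul_cancel, Units.val_one]
  set Z : Matrix (Fin n) (Fin n) F := Gᵀ * G.map (sg hF) with hZ
  -- the matrices `K = g⁻¹ x g`
  have h1 : ∀ x ∈ P, (((g⁻¹ * x * g : GL (Fin n) F)) : Matrix (Fin n) (Fin n) F)ᵀ * Z *
      (((g⁻¹ * x * g : GL (Fin n) F)) : Matrix (Fin n) (Fin n) F).map (sg hF) = Z := by
    intro x hx
    have h2 := un_of_mem_GU hF (hP x hx)
    have h3 : G * (((g⁻¹ * x * g : GL (Fin n) F)) : Matrix (Fin n) (Fin n) F) = (x : Matrix (Fin n) (Fin n) F) * G := by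
      rw [hG, ← Units.val_mul, ← Units.val_mul]
      congr 1
      group
    calc (((g⁻¹ * x * g : GL (Fin n) F)) : Matrix (Fin n) (Fin n) F)ᵀ * Z *
          (((g⁻¹ * x * g : GL (Fin n) F)) : Matrix (Fin n) (Fin n) F).map (sg hF)
        = (G * (((g⁻¹ * x * g : GL (Fin n) F)) : Matrix (Fin n) (Fin n) F))ᵀ *
          (G * (((g⁻¹ * x * g : GL (Fin n) F)) : Matrix (Fin n) (Fin n) F)).map (sg hF) := by
          rw [Matrix.transpose_mul, Matrix.map_mul, hZ]
          simp only [Matrix.mul_assoc]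
      _ = Gᵀ * ((x : Matrix (Fin n) (Fin n) F)ᵀ * (x : Matrix (Fin n) (Fin n) F).map (sg hF)) * G.map (sg hF) := by
          rw [h3, Matrix.transpose_mul, Matrix.map_mul]
          simp only [Matrix.mul_assoc]
      _ = Z := by rw [h2, Matrix.mul_one, hZ]
  have h2 : ∀ x ∈ P, Z.map (sg hF) * (((g⁻¹ * x * g : GL (Fin n) F)) : Matrix (Fin n) (Fin n) F) =
      (((g⁻¹ * x * g : GL (Fin n) F)) : Matrix (Fin n) (Fin n) F) * Z.map (sg hF) := by
    intro x hx
    have hKx := h1 x hx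
    have hKu := un_of_mem_GU hF (hg x hx)
    generalize (((g⁻¹ * x * g : GL (Fin n) F)) : Matrix (Fin n) (Fin n) F) = K at hKx hKu ⊢
    have h3 : K.map (sg hF) * Kᵀ = 1 := mul_eq_one_comm.1 hKu
    have h4 : Z * K.map (sg hF) = K.map (sg hF) * Z := by
      calc Z * K.map (sg hF) = (K.map (sg hF) * Kᵀ) * Z * K.map (sg hF) := by rw [h3, Matrix.one_mul]
        _ = K.map (sg hF) * (Kᵀ * Z * K.map (sg hF)) := by simp only [Matrix.mul_assoc]
        _ = _ := by rw [hKx]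
    have h5 := congrArg (fun X : Matrix (Fin n) (Fin n) F => X.map (sg hF)) h4
    simp only [Matrix.map_mul] at h5
    rw [map_map_sg] at h5
    exact h5
  obtain ⟨c, hc'⟩ := hPirr.2 (G * Z.map (sg hF) * G') (by
    rintro _ ⟨x, hx, rfl⟩
    have h3 := h2 x hx
    have h4 : (((g⁻¹ * x * g : GL (Fin n) F)) : Matrix (Fin n) (Fin n) F) = G' * (x : Matrix (Fin n) (Fin n) F) * G := by
      rw [Units.val_mul, Units.val_mul]
    rw [h4] at h3
    change G * Z.map (sg hF) * G' * (x : Matrix (Fin n) (Fin n) F) =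
      (x : Matrix (Fin n) (Fin n) F) * (G * Z.map (sg hF) * G')
    calc G * Z.map (sg hF) * G' * (x : Matrix (Fin n) (Fin n) F)
        = G * (Z.map (sg hF) * (G' * (x : Matrix (Fin n) (Fin n) F) * G)) * G' := by
          simp only [Matrix.mul_assoc, hGG, Matrix.mul_one]
      _ = (G * G') * ((x : Matrix (Fin n) (Fin n) F) * (G * Z.map (sg hF) * G')) := by
          rw [h3]; simp only [Matrix.mul_assoc]
      _ = _ := by rw [hGG, Matrix.one_mul])
  have h6 : Z.map (sg hF) = c • 1 := by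
    calc Z.map (sg hF) = (G' * G) * Z.map (sg hF) * (G' * G) := by rw [hGG', Matrix.one_mul, Matrix.mul_one]
      _ = G' * (G * Z.map (sg hF) * G') * G := by simp only [Matrix.mul_assoc]
      _ = _ := by rw [hc', Matrix.mul_smul, Matrix.smul_mul, Matrix.mul_one, hGG']
  refine ⟨sg hF c, ?_⟩
  rw [← map_map_sg hF Z, h6]
  ext i j
  simp only [Matrix.map_apply, Matrix.smul_apply, smul_eq_mul, map_mul, Matrix.one_apply]
  split_ifs <;> simp

variable {m k : ℕ} (e : Fin m × Fin k ≃ Fin n)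

theorem un_kr (hF : Fintype.card F = q ^ 2) {a : Matrix (Fin m) (Fin m) F} {b : Matrix (Fin k) (Fin k) F}
    (ha : aᵀ * a.map (sg hF) = 1) (hb : bᵀ * b.map (sg hF) = 1) :
    (kr e a b)ᵀ * (kr e a b).map (sg hF) = 1 := by
  rw [kr_trans, kr_map, ← kr_mul, ha, hb, kr_one]

theorem krGL_mem_GU (hF : Fintype.card F = q ^ 2) {a : GL (Fin m) F} {b : GL (Fin k) F} (ha : a ∈ GU m F q)
    (hb : b ∈ GU k F q) : krGL e a b ∈ GU n F q := by
  apply mem_GU_of_un hF
  rw [coe_krGL]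
  exact un_kr e hF (un_of_mem_GU hF ha) (un_of_mem_GU hF hb)

/-- a diagonal unitary matrix -/
theorem exists_diag_aux (hF : Fintype.card F = q ^ 2) (d : Fin n → F) (hd : ∀ i, d i * d i ^ q = 1)
    (hdet : (Matrix.diagonal d).det = 1) : ∃ x : GL (Fin n) F, x ∈ GU n F q ∧
      (x : Matrix (Fin n) (Fin n) F) = Matrix.diagonal d ∧
      (x : Matrix (Fin n) (Fin n) F).det = 1 := by
  obtain ⟨x, hx⟩ : ∃ x : GL (Fin n) F, (x : Matrix (Fin n) (Fin n) F) = Matrix.diagonal d :=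
    (Matrix.isUnit_iff_isUnit_det _).2 (by rw [hdet]; exact isUnit_one)
  refine ⟨x, ?_, hx, by rw [hx, hdet]⟩
  apply mem_GU_of_un hF
  rw [hx, Matrix.diagonal_transpose, Matrix.diagonal_map (map_zero _), Matrix.diagonal_mul_diagonal,
    ← Matrix.diagonal_one]
  congr 1
  funext i
  exact hd i

/-- a diagonal unitary matrix of determinant one -/
theorem exists_diag (hF : Fintype.card F = q ^ 2) {i0 i1 : Fin n} (h01 : i0 ≠ i1) {ζ : F} (hζ0 : ζ ≠ 0)
    (hζ : ζ * ζ ^ q = 1) : ∃ x : GL (Fin n) F, x ∈ GU n F q ∧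
      (x : Matrix (Fin n) (Fin n) F) = Matrix.diagonal (Pi.mulSingle i0 ζ * Pi.mulSingle i1 ζ⁻¹) ∧
      (x : Matrix (Fin n) (Fin n) F).det = 1 := by
  apply exists_diag_aux hF
  · intro i
    rw [Pi.mul_apply, mul_pow]
    have e1 : ∀ (j : Fin n) (x : F), x * x ^ q = 1 →
        (Pi.mulSingle j x : Fin n → F) i * (Pi.mulSingle j x : Fin n → F) i ^ q = 1 := by
      intro j x hx
      by_cases h : i = j
      · subst h
        rw [Pi.mulSingle_eq_same, hx]
      · rw [Pi.mulSingle_eq_of_ne h, one_pow, one_mul]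
    have h2 := e1 i0 ζ hζ
    have h3 := e1 i1 ζ⁻¹ (by rw [inv_pow, ← mul_inv, hζ, inv_one])
    calc _ = ((Pi.mulSingle i0 ζ : Fin n → F) i * (Pi.mulSingle i0 ζ : Fin n → F) i ^ q) *
          ((Pi.mulSingle i1 ζ⁻¹ : Fin n → F) i * (Pi.mulSingle i1 ζ⁻¹ : Fin n → F) i ^ q) := by ring
      _ = 1 := by rw [h2, h3, one_mul]
  · rw [Matrix.det_diagonal]
    simp only [Pi.mul_apply]
    rw [Finset.prod_mul_distrib, Finset.prod_pi_mulSingle', Finset.prod_pi_mulSingle', if_pos (Finset.mem_univ _),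
      if_pos (Finset.mem_univ _), mul_inv_cancel₀ hζ0]

/-- **Tensor kill, unitary case.** -/
theorem kill_SU (hF : Fintype.card F = q ^ 2) (hm : 3 ≤ m) (hk : 2 ≤ k) {H P : Subgroup (GL (Fin n) F)}
    (hc : IsResidualCore H P) (hH : IsMaximalIn (GU n F q ⊓ specialLinear (Fin n) F) H) (g : GL (Fin n) F)
    (ht : ∀ h ∈ H, ∃ (a : GL (Fin m) F) (b : GL (Fin k) F), h = g * krGL e a b * g⁻¹)
    (hu : ∀ x ∈ P, ∃ a ∈ GU m F q, ∃ b ∈ GU k F q, x = g * krGL e a b * g⁻¹) : False := by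
  have hnm : Nontrivial (Fin m) := ⟨⟨0, by omega⟩, ⟨1, by omega⟩, by simp⟩
  have hnk : Nontrivial (Fin k) := ⟨⟨0, by omega⟩, ⟨1, by omega⟩, by simp⟩
  obtain ⟨ζ, hζ1, hζ0, hζn⟩ := exists_norm_one_ne hF
  obtain ⟨κ, hκ⟩ := exists_similitude hF hc.absIrred (fun x hx => (hH.1.le (hc.le hx)).1) g (by
    intro x hx
    obtain ⟨a, ha, b, hb, rfl⟩ := hu x hx
    have : g⁻¹ * (g * krGL e a b * g⁻¹) * g = krGL e a b := by group
    rw [this]
    exact krGL_mem_GU e hF ha hb)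
  obtain ⟨i0, hi0⟩ : ∃ i : Fin m, i = ⟨0, by omega⟩ := ⟨_, rfl⟩
  obtain ⟨i1, hi1⟩ : ∃ i : Fin m, i = ⟨1, by omega⟩ := ⟨_, rfl⟩
  obtain ⟨i2, hi2⟩ : ∃ i : Fin m, i = ⟨2, by omega⟩ := ⟨_, rfl⟩
  obtain ⟨j0, hj0⟩ : ∃ i : Fin k, i = ⟨0, by omega⟩ := ⟨_, rfl⟩
  obtain ⟨j1, hj1⟩ : ∃ i : Fin k, i = ⟨1, by omega⟩ := ⟨_, rfl⟩
  have h01 : i0 ≠ i1 := by rw [hi0, hi1]; simp
  have h02 : i0 ≠ i2 := by rw [hi0, hi2]; simp
  have h12 : i1 ≠ i2 := by rw [hi1, hi2]; simp
  have hj : j0 ≠ j1 := by rw [hj0, hj1]; simp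
  have hle : H ≤ stabD (Dec e) g ⊓ (GU n F q ⊓ specialLinear (Fin n) F) := by
    refine le_inf ?_ hH.1.le
    intro h hh
    obtain ⟨a, b, rfl⟩ := ht h hh
    exact conj_krGL_mem e g a b
  rcases hH.2 _ hle inf_le_right with hM | hM
  · obtain ⟨y, hy1, hy2, hy3⟩ := exists_diag hF h01 hζ0 hζn
    refine contra e hc g ht y ?_ ?_
    · intro d hd
      rw [hy2] at hd
      have h2 := congrFun (congrFun hd i2) i2
      have h0 := congrFun (congrFun hd i0) i0
      rw [Matrix.diagonal_apply_eq, Matrix.smul_apply, Matrix.one_apply_eq, Pi.mul_apply,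
        Pi.mulSingle_eq_of_ne h02.symm, Pi.mulSingle_eq_of_ne h12.symm, smul_eq_mul, mul_one, mul_one] at h2
      rw [Matrix.diagonal_apply_eq, Matrix.smul_apply, Matrix.one_apply_eq, Pi.mul_apply,
        Pi.mulSingle_eq_same, Pi.mulSingle_eq_of_ne h01, smul_eq_mul, mul_one, mul_one] at h0
      exact hζ1 (by rw [h0, ← h2])
    · rw [← hM]
      refine ⟨conj_krGL_mem e g y 1, conj_mem_GU hF hκ (krGL_mem_GU e hF hy1 (GU k F q).one_mem),
        det_conj_mem g _ ?_⟩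
      rw [coe_krGL, det_kr, Units.val_one, Matrix.det_one, one_pow, mul_one, hy3, one_pow]
  · have hne : e (i0, j0) ≠ e (i2, j0) := fun h => h02 (Prod.ext_iff.1 (e.injective h)).1
    obtain ⟨x, hx1, hx2, hx3⟩ := exists_diag hF hne hζ0 hζn
    have h1 : g * x * g⁻¹ ∈ stabD (Dec e) g ⊓ (GU n F q ⊓ specialLinear (Fin n) F) := by
      rw [hM]
      exact ⟨conj_mem_GU hF hκ hx1, det_conj_mem g x hx3⟩
    have h2 := (mem_stabD.1 h1.1 (ten e 1 1)).1 ⟨1, 1, rfl⟩
    have e1 : g⁻¹ * (g * x * g⁻¹) * g = x := by group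
    rw [e1, hx2] at h2
    obtain ⟨u, v, huv⟩ := h2
    have e2 : ∀ i j, (Pi.mulSingle (e (i0, j0)) ζ * Pi.mulSingle (e (i2, j0)) ζ⁻¹ : Fin n → F) (e (i, j)) =
        u i * v j := by
      intro i j
      have := congrFun huv (e (i, j))
      rw [Matrix.mulVec_diagonal, ten_ix, ten_ix] at this
      rw [← this]
      simp
    have h00 := e2 i0 j0
    have h01' := e2 i0 j1
    have h10 := e2 i1 j0
    have h11 := e2 i1 j1
    have hen : ∀ {i i' : Fin m} {j j' : Fin k}, (i ≠ i' ∨ j ≠ j') → e (i, j) ≠ e (i', j') := by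
      intro i i' j j' h h'
      have := Prod.ext_iff.1 (e.injective h')
      rcases h with h | h
      · exact h this.1
      · exact h this.2
    rw [Pi.mul_apply, Pi.mulSingle_eq_same, Pi.mulSingle_eq_of_ne (hen (Or.inl h02)), mul_one] at h00
    rw [Pi.mul_apply, Pi.mulSingle_eq_of_ne (hen (Or.inr hj.symm)), Pi.mulSingle_eq_of_ne (hen (Or.inl h02)),
      mul_one] at h01'
    rw [Pi.mul_apply, Pi.mulSingle_eq_of_ne (hen (Or.inl h01.symm)), Pi.mulSingle_eq_of_ne (hen (Or.inl h12)),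
      mul_one] at h10
    rw [Pi.mul_apply, Pi.mulSingle_eq_of_ne (hen (Or.inl h01.symm)), Pi.mulSingle_eq_of_ne (hen (Or.inl h12)),
      mul_one] at h11
    apply hζ1
    calc ζ = (u i0 * v j0) * (u i1 * v j1) := by rw [← h00, ← h11, mul_one]
      _ = (u i0 * v j1) * (u i1 * v j0) := by ring
      _ = 1 := by rw [← h01', ← h10, mul_one]

end unitary

/-- If `H ≤ P · scalars`, the tensor form of `P` gives the tensor form of `H`. -/
theorem tensor_of_cover {F : Type*} [Field F] {ι κ ν : Type} [Fintype ι] [Fintype κ] [Fintype ν] [DecidableEq ι]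
    [DecidableEq κ] [DecidableEq ν] (e : ι × κ ≃ ν) {H P : Subgroup (GL ν F)} (g : GL ν F)
    (hHP : ∀ h ∈ H, ∃ x ∈ P, ∃ s ∈ scalars ν F, h = x * s)
    (hu : ∀ x ∈ P, ∃ (a : GL ι F) (b : GL κ F), x = g * krGL e a b * g⁻¹) :
    ∀ h ∈ H, ∃ (a : GL ι F) (b : GL κ F), h = g * krGL e a b * g⁻¹ := by
  intro h hh
  obtain ⟨x, hx, s, hs, rfl⟩ := hHP h hh
  obtain ⟨a, b, rfl⟩ := hu x hx
  obtain ⟨c, hc⟩ := (mem_scalars_iff _).1 hs
  let d : GL ι F := ⟨(c : F) • 1, ((c⁻¹ : Fˣ) : F) • 1, by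
    rw [Matrix.smul_mul, Matrix.one_mul, smul_smul, Units.mul_inv, one_smul], by
    rw [Matrix.smul_mul, Matrix.one_mul, smul_smul, Units.inv_mul, one_smul]⟩
  refine ⟨a * d, b, ?_⟩
  have h1 : krGL e (a * d) b = krGL e a b * s := by
    apply Units.ext
    rw [coe_krGL, Units.val_mul, Units.val_mul, coe_krGL, hc]
    change kr e ((a : Matrix ι ι F) * ((c : F) • 1)) _ = _
    rw [Matrix.mul_smul, Matrix.mul_one, kr_smul_left, Matrix.mul_smul, Matrix.mul_one]
  have h2 : s * g⁻¹ = g⁻¹ * s := by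
    apply Units.ext
    rw [Units.val_mul, Units.val_mul, hc, Matrix.smul_mul, Matrix.mul_smul, Matrix.one_mul, Matrix.mul_one]
  rw [h1]
  calc g * krGL e a b * g⁻¹ * s = g * krGL e a b * (g⁻¹ * s) := by group
    _ = _ := by rw [← h2]; group

end Cfsg.Agent.H108.TK
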